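import Mathlib
import Cfsg.Agent.Lib.StChar.Inner
import Cfsg.Agent.Lib.Blocks.Kernel
import Cfsg.Agent.Lib.Char.PRegular
import Cfsg.Agent.Lib.ChevOrder.BNCount

/-!
The Steinberg character of a finite group with a `(B,N)`-pair split by a normal Sylow subgroup `U` of `B`:
an irreducible character of degree the `p`-part of the order, trivial on the centre and vanishing on
`p`-singular elements.  Also the descent to the central quotient.
-/

set_option autoImplicit false
set_option linter.unusedSectionVars false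

namespace Cfsg.Agent.Lib.StGen.Final

open Cfsg Cfsg.Agent.Lib.BNPair.Basic Cfsg.Agent.Lib.ChevOrder.BNCount Cfsg.Agent.Lib.StChar.Inner
open Cfsg.Agent.Lib.StChar.Gate Cfsg.Agent.Lib.StChar.Cox

universe u

variable {G : Type u} [Group G] [Finite G] (P : Cfsg.BNPair G) (p : ℕ) [hp : Fact p.Prime]

/-- The hypotheses. -/
structure Hyp (U : Subgroup G) {ι : Type*} (e : ι → G) : Prop where
  hU : IsPGroup p U
  U_le : U ≤ P.B
  U_norm : ∀ b ∈ P.B, ∀ u ∈ U, b * u * b⁻¹ ∈ U
  B_dec : ∀ b ∈ P.B, ∃ u ∈ U, ∃ t ∈ P.B ⊓ P.N, b = u * t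
  T_cop : ¬ p ∣ Nat.card ↥(P.B ⊓ P.N)
  he : ∀ i, e i ∈ P.S
  hes : ∀ s ∈ P.S, ∃ i, e i = s
  hne : ∀ s ∈ P.S, ∃ x ∈ U, s * x * s⁻¹ ∉ P.B
  hT : ∀ n ∈ P.N, (∀ i, len P (e i * n) < len P n) → ∀ x ∈ P.B, n⁻¹ * x * n ∈ P.B → x ∈ P.B ⊓ P.N

variable {P p} {U : Subgroup G} {ι : Type*} {e : ι → G} (H : Hyp P p U e)

include H

theorem inf_eq_one {t : G} (ht : t ∈ P.B ⊓ P.N) (hu : t ∈ U) : t = 1 := by
  have : orderOf t ∣ Nat.card ↥(P.B ⊓ P.N) := by
    have := orderOf_dvd_natCard (⟨t, ht⟩ : ↥(P.B ⊓ P.N))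
    rwa [Subgroup.orderOf_mk] at this
  obtain ⟨k, hk⟩ := IsPGroup.iff_orderOf.1 H.hU ⟨t, hu⟩
  rw [Subgroup.orderOf_mk] at hk
  rw [hk] at this
  cases k with
  | zero =>
    rw [pow_zero, orderOf_eq_one_iff] at hk
    exact hk
  | succ k =>
    exact absurd ((dvd_pow_self p (Nat.succ_ne_zero k)).trans this) H.T_cop

/-- `N`-elements conjugating `U` into `B` are in `B`. -/
theorem mem_B_of_conj {n : G} (hn : n ∈ P.N) (hU : ∀ u ∈ U, n⁻¹ * u * n ∈ P.B) : n ∈ P.B := by
  by_contra hnB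
  have h0 : len P n ≠ 0 := fun h => hnB ((len_eq_zero_iff hn).1 h)
  obtain ⟨k, hk⟩ := Nat.exists_eq_succ_of_ne_zero h0
  obtain ⟨s, hs, n', hn', rfl, h2⟩ := decomp_left hn hk
  obtain ⟨x, hx, hx'⟩ := H.hne s hs
  have h1 := len_lt_of_conj hs hn (H.U_le hx) hx' (hU x hx)
  have h3 : len P (s * (s * n')) = len P n' := by
    apply len_congr
    have e : (s * (s * n'))⁻¹ * n' = n'⁻¹ * (s * s)⁻¹ * n' := by group
    rw [e]
    exact conj_inv_B hn' (inv_sq_mem_B hs) (P.N.inv_mem (sq_mem_N hs))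
  omega

/-- `U` fixes only one point on `G/B`. -/
theorem eq_of_fixed {g : G} (hg : ∀ u ∈ U, g⁻¹ * u * g ∈ P.B) : g ∈ P.B := by
  obtain ⟨n, h1, h2⟩ := exists_rep (P := P) g
  obtain ⟨b, hb, b', hb', rfl⟩ := mem_C.1 h2
  have hnB : (n : G) ∈ P.B := by
    refine mem_B_of_conj H n.2 fun u hu => ?_
    have h3 := hg (b * u * b⁻¹) (H.U_norm b hb u hu)
    have e : (b * (n : G) * b')⁻¹ * (b * u * b⁻¹) * (b * (n : G) * b') = b'⁻¹ * ((n : G)⁻¹ * u * n) * b' := by group
    rw [e] at h3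
    have h4 := P.B.mul_mem (P.B.mul_mem hb' h3) (P.B.inv_mem hb')
    have e2 : b' * (b'⁻¹ * ((n : G)⁻¹ * u * n) * b') * b'⁻¹ = (n : G)⁻¹ * u * n := by group
    rwa [e2] at h4
  exact P.B.mul_mem (P.B.mul_mem hb hnB) hb'

/-- `p` does not divide the index of `U`. -/
theorem not_dvd_index : ¬ p ∣ U.index := by
  classical
  have hmod := H.hU.card_modEq_card_fixedPoints (G ⧸ P.B)
  have hfix : Nat.card (MulAction.fixedPoints ↥U (G ⧸ P.B)) = 1 := by
    rw [Nat.card_eq_one_iff_unique]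
    refine ⟨⟨?_⟩, ⟨⟨((1 : G) : G ⧸ P.B), ?_⟩⟩⟩
    · have key : ∀ c : MulAction.fixedPoints ↥U (G ⧸ P.B), (c : G ⧸ P.B) = ((1 : G) : G ⧸ P.B) := by
        rintro ⟨c, hc⟩
        obtain ⟨g, rfl⟩ := QuotientGroup.mk_surjective c
        have hgB : g ∈ P.B := by
          refine eq_of_fixed H fun u hu => ?_
          have h1 := hc ⟨u, hu⟩
          have h2 : ((u * g : G) : G ⧸ P.B) = (g : G ⧸ P.B) := h1
          rw [eq_comm, QuotientGroup.eq] at h2
          have e : g⁻¹ * u * g = g⁻¹ * (u * g) := by group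
          rw [e]
          exact h2
        show (g : G ⧸ P.B) = ((1 : G) : G ⧸ P.B)
        rw [eq_comm, QuotientGroup.eq]
        simpa using hgB
      intro a b
      exact Subtype.ext ((key a).trans (key b).symm)
    · intro u
      show (((u : G) * 1 : G) : G ⧸ P.B) = ((1 : G) : G ⧸ P.B)
      rw [eq_comm, QuotientGroup.eq]
      simpa using H.U_le u.2
  rw [hfix] at hmod
  have hB : ¬ p ∣ P.B.index := by
    intro h
    have h1 : Nat.card (G ⧸ P.B) = P.B.index := rfl
    rw [h1] at hmod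
    have h2 : 1 % p = 0 := by
      have := hmod.symm
      have h3 := (Nat.modEq_zero_iff_dvd.2 h)
      exact this.trans h3
    rw [Nat.one_mod_eq_zero_iff] at h2
    exact hp.out.one_lt.ne' h2
  -- `B = U T`
  have hrel : ¬ p ∣ U.relIndex P.B := by
    intro h
    apply H.T_cop
    have h1 : U.relIndex P.B = Nat.card ↥(P.B ⊓ P.N) := by
      let φ : ↥(P.B ⊓ P.N) → ↥P.B ⧸ U.subgroupOf P.B := fun t => ((⟨t, t.2.1⟩ : ↥P.B) : ↥P.B ⧸ U.subgroupOf P.B)
      have hφ : Function.Bijective φ := by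
        constructor
        · intro t t' hh
          have h2 : ((⟨t, t.2.1⟩ : ↥P.B) : ↥P.B ⧸ U.subgroupOf P.B) = ((⟨t', t'.2.1⟩ : ↥P.B) : ↥P.B ⧸ U.subgroupOf P.B) := hh
          rw [QuotientGroup.eq] at h2
          have h3 : (t : G)⁻¹ * t' ∈ U := h2
          have h4 := inf_eq_one H (Subgroup.mul_mem _ (Subgroup.inv_mem _ t.2) t'.2) h3
          exact Subtype.ext (inv_mul_eq_one.1 h4)
        · intro c
          obtain ⟨⟨b, hb⟩, rfl⟩ := QuotientGroup.mk_surjective c
          obtain ⟨u, hu, t, ht, rfl⟩ := H.B_dec b hb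
          refine ⟨⟨t, ht⟩, ?_⟩
          show ((⟨t, ht.1⟩ : ↥P.B) : ↥P.B ⧸ U.subgroupOf P.B) = _
          rw [QuotientGroup.eq]
          show t⁻¹ * (u * t) ∈ U
          have h2 := H.U_norm t⁻¹ (P.B.inv_mem ht.1) u hu
          simpa [mul_assoc] using h2
      exact (Nat.card_eq_of_bijective φ hφ).symm
    rwa [h1] at h
  have h2 : U.index = U.relIndex P.B * P.B.index := (Subgroup.relIndex_mul_index H.U_le).symm
  rw [h2]
  intro h
  rcases hp.out.dvd_mul.1 h with h | h
  · exact hrel h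
  · exact hB h

/-- The order of `U` is the `p`-part of the order of `G`. -/
theorem card_U : Nat.card U = p ^ (Nat.card G).factorization p := by
  obtain ⟨k, hk⟩ := IsPGroup.iff_card.1 H.hU
  have h1 := U.card_mul_index
  have h2 := not_dvd_index H
  have h3 : 0 < U.index := Nat.pos_of_ne_zero fun h => h2 (h ▸ dvd_zero p)
  rw [hk, ← h1, Nat.factorization_mul Nat.card_pos.ne' h3.ne', Finsupp.add_apply, hk,
    hp.out.factorization_pow, Nat.factorization_eq_zero_of_not_dvd h2]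
  simp

theorem center_le {z : G} (hz : z ∈ Subgroup.center G) : z ∈ P.B := by
  refine eq_of_fixed H fun u hu => ?_
  have h1 : z⁻¹ * u * z = u := by
    rw [mul_assoc, Subgroup.mem_center_iff.1 hz u]
    group
  rw [h1]
  exact H.U_le hu

variable [Fintype ι] [DecidableEq ι]

theorem main : ∃ ψ : IrrCharacter G,
    (ψ : G → ℂ) 1 = (p ^ (Nat.card G).factorization p : ℕ) ∧
    (∀ z ∈ Subgroup.center G, (ψ : G → ℂ) z = (ψ : G → ℂ) 1) ∧
    (∀ g, p ∣ orderOf g → (ψ : G → ℂ) g = 0) := by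
  classical
  have hs := setup (P := P) e H.he H.hes
  obtain ⟨y, -, h1, h2⟩ := exists_top hs (Set.univ : Set ι)
  obtain ⟨n, rfl⟩ := QuotientGroup.mk_surjective y
  have hleft : ∀ i, len P (e i * n) < len P n := fun i => by
    have h3 := h1 i (Set.mem_univ _)
    have e1 : ff e H.he i * (QuotientGroup.mk n : WW P) =
        QuotientGroup.mk (⟨e i * (n : G), P.N.mul_mem (P.subset (H.he i)) n.2⟩ : ↥P.N) := rfl
    rw [e1, LL_mk, LL_mk] at h3
    exact h3
  have htop : ∀ i, LL P ((QuotientGroup.mk n : WW P) * ff e H.he i) < LL P (QuotientGroup.mk n) :=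
    fun i => h2 i (Set.mem_univ _)
  have hT := H.hT n n.2 hleft
  -- the degree
  have hone : stChar P e 1 = (Nat.card U : ℂ) := by
    rw [stChar_apply hs P.B.one_mem htop]
    congr 1
    let Φ : U → {C : G ⧸ P.B // cellQ P C = QuotientGroup.mk n ∧ (1 : G) • C = C} := fun u =>
      ⟨QuotientGroup.mk ((u : G) * (n : G)), by
        rw [cellQ_mk, cell_eq_iff]
        exact mem_C.2 ⟨u, H.U_le u.2, 1, P.B.one_mem, by simp⟩, one_smul _ _⟩
    have hΦ : Function.Bijective Φ := by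
      constructor
      · intro u u' he
        have h1 := congrArg (fun z => z.1) he
        simp only [Φ] at h1
        rw [QuotientGroup.eq] at h1
        have e : ((u : G) * (n : G))⁻¹ * ((u' : G) * (n : G)) = (n : G)⁻¹ * ((u : G)⁻¹ * u') * n := by group
        rw [e] at h1
        have hB : (u : G)⁻¹ * u' ∈ P.B := H.U_le (U.mul_mem (U.inv_mem u.2) u'.2)
        have h2 := hT _ hB h1
        have h3 := inf_eq_one H h2 (U.mul_mem (U.inv_mem u.2) u'.2)
        exact Subtype.ext (inv_mul_eq_one.1 h3)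
      · rintro ⟨C, hC, -⟩
        obtain ⟨x, rfl⟩ := QuotientGroup.mk_surjective C
        rw [cellQ_mk, cell_eq_iff] at hC
        obtain ⟨b, hb, b', hb', rfl⟩ := mem_C.1 hC
        obtain ⟨u, hu, t, ht, rfl⟩ := H.B_dec b hb
        refine ⟨⟨u, hu⟩, Subtype.ext ?_⟩
        simp only [Φ]
        rw [QuotientGroup.eq]
        have e : ((u : G) * (n : G))⁻¹ * (u * t * (n : G) * b') = ((n : G)⁻¹ * t * n) * b' := by group
        rw [e]
        exact P.B.mul_mem (conj_inv_B n.2 ht.1 ht.2) hb'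
    exact (Nat.card_congr (Equiv.ofBijective Φ hΦ)).symm
  have hirr : IsIrrCharacter G (stChar P e) := stChar_isIrr (he := H.he) hs
  have hcard := card_U H
  have hone' : stChar P e 1 = (p ^ (Nat.card G).factorization p : ℕ) := by
    rw [hone, hcard]
  refine ⟨⟨stChar P e, hirr⟩, hone', ?_, ?_⟩
  · intro z hz
    have hzB := center_le H hz
    show stChar P e z = stChar P e 1
    rw [stChar_apply hs hzB htop, stChar_apply hs P.B.one_mem htop]
    congr 1
    refine Nat.card_congr (Equiv.subtypeEquivRight fun C => ?_)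
    rw [one_smul]
    refine and_congr_right fun _ => ?_
    have : z • C = C := by
      obtain ⟨x, rfl⟩ := QuotientGroup.mk_surjective C
      rw [show z • (QuotientGroup.mk x : G ⧸ P.B) = QuotientGroup.mk (z * x) from rfl, QuotientGroup.eq]
      have hc : z * x = x * z := (Subgroup.mem_center_iff.1 hz x).symm
      have h1 : (z * x)⁻¹ * x = z⁻¹ := by
        rw [hc]
        group
      rw [h1]
      exact P.B.inv_mem hzB
    exact iff_of_true this rfl
  · intro g hg
    obtain ⟨d, ρ, hρ, he⟩ := hirr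
    have := hρ
    show stChar P e g = 0
    rw [← he]
    have hpos : Nat.card G ≠ 0 := Nat.card_pos.ne'
    refine Cfsg.Agent.Lib.Char.PRegular.character_eq_zero_of_defect_zero ρ p
      ((Nat.card G).factorization p) hp.out (Nat.ordProj_dvd _ _)
      (Nat.pow_succ_factorization_not_dvd hpos hp.out) ?_ g hg
    have h1 : ρ.character 1 = (Module.finrank ℂ (Fin d → ℂ) : ℂ) := by
      simp [Representation.character]
    rw [he, hone'] at h1
    have h3 : Module.finrank ℂ (Fin d → ℂ) = p ^ (Nat.card G).factorization p := by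
      exact_mod_cast h1.symm
    rw [h3]

omit [Fintype ι] [DecidableEq ι] in
theorem not_dvd_center : ¬ p ∣ Nat.card ↥(Subgroup.center G) := by
  classical
  have hs := setup (P := P) e H.he H.hes
  obtain ⟨y, -, h1, -⟩ := exists_top hs (Set.univ : Set ι)
  obtain ⟨n, rfl⟩ := QuotientGroup.mk_surjective y
  have hleft : ∀ i, len P (e i * n) < len P n := fun i => by
    have h3 := h1 i (Set.mem_univ _)
    have e1 : ff e H.he i * (QuotientGroup.mk n : WW P) =
        QuotientGroup.mk (⟨e i * (n : G), P.N.mul_mem (P.subset (H.he i)) n.2⟩ : ↥P.N) := rfl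
    rw [e1, LL_mk, LL_mk] at h3
    exact h3
  have hle : Subgroup.center G ≤ P.B ⊓ P.N := by
    intro z hz
    refine H.hT n n.2 hleft z (center_le H hz) ?_
    have h1 : (n : G)⁻¹ * z * n = z := by
      rw [Subgroup.mem_center_iff.1 hz (n : G)⁻¹]
      group
    rw [h1]
    exact center_le H hz
  intro h
  exact H.T_cop (h.trans (Subgroup.card_dvd_of_le hle))

variable (P) in
/-- **The Steinberg character of the central quotient.** -/
theorem quot_main : ∃ χ : (G ⧸ Subgroup.center G) → ℂ, Cfsg.IsIrrCharacter (G ⧸ Subgroup.center G) χ ∧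
    ∀ Q : Sylow p (G ⧸ Subgroup.center G), χ 1 = Nat.card Q ∧ ∀ x : G ⧸ Subgroup.center G, x ∈ Q → x ≠ 1 → χ x = 0 := by
  classical
  obtain ⟨ψ, hone, hcen, hvan⟩ := main H
  obtain ⟨ψ', hψ'⟩ := Cfsg.Agent.Lib.Blocks.Kernel.exists_irr_of_kernel (Subgroup.center G) ψ.2 hcen
  have hZ := not_dvd_center H
  have hcard : Nat.card G = Nat.card (G ⧸ Subgroup.center G) * Nat.card ↥(Subgroup.center G) := by
    rw [Subgroup.card_eq_card_quotient_mul_card_subgroup (Subgroup.center G)]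
  have hfact : (Nat.card G).factorization p = (Nat.card (G ⧸ Subgroup.center G)).factorization p := by
    rw [hcard, Nat.factorization_mul Nat.card_pos.ne' Nat.card_pos.ne', Finsupp.add_apply,
      Nat.factorization_eq_zero_of_not_dvd hZ, add_zero]
  refine ⟨(ψ' : G ⧸ Subgroup.center G → ℂ), ψ'.2, fun Q => ⟨?_, ?_⟩⟩
  · have h1 : (ψ' : G ⧸ Subgroup.center G → ℂ) 1 = (ψ : G → ℂ) 1 := by
      rw [hψ']
      rfl
    rw [h1, hone, hfact, Sylow.card_eq_multiplicity Q]
  · intro x hx hx1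
    obtain ⟨g, rfl⟩ := QuotientGroup.mk_surjective x
    have h1 : (ψ' : G ⧸ Subgroup.center G → ℂ) (g : G ⧸ Subgroup.center G) = (ψ : G → ℂ) g := by
      rw [hψ']
      rfl
    rw [h1]
    apply hvan
    obtain ⟨k, hk⟩ := IsPGroup.iff_orderOf.1 Q.isPGroup' ⟨_, hx⟩
    have h3 : orderOf ((g : G ⧸ Subgroup.center G)) = p ^ k := by
      rw [← hk]
      exact (Subgroup.orderOf_mk _ _).symm
    have hk0 : k ≠ 0 := by
      rintro rfl
      rw [pow_zero, orderOf_eq_one_iff] at h3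
      exact hx1 h3
    have h5 : orderOf ((g : G ⧸ Subgroup.center G)) ∣ orderOf g :=
      orderOf_map_dvd (QuotientGroup.mk' _) g
    exact (dvd_pow_self p hk0).trans (h3 ▸ h5)

end Cfsg.Agent.Lib.StGen.Final
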