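import Mathlib
import Cfsg.Agent.Lib.StGen.Final
import Cfsg.Agent.Lib.ChevBN.Core
import Cfsg.Agent.Lib.PSL2.Basic

/-!
Monomial and unitriangular elements of a group mapped to matrices; a criterion for a `(B,N)`-pair from
"nodes": homomorphisms of `SL₂(F)` attached to the simple roots.
-/

set_option autoImplicit false
set_option linter.unusedSectionVars false
set_option linter.unusedSimpArgs false

namespace Cfsg.Agent.Lib.StGen.Mono

open Matrix Cfsg Cfsg.Agent.Lib.PSL2.Basic Cfsg.Agent.Lib.ChevBN.Core Cfsg.Agent.Lib.BNPair.Basic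
open Cfsg.Agent.Lib.ChevOrder.BNCount
open scoped MatrixGroups

variable {G : Type*} [Group G] {ι : Type*} [Fintype ι] [DecidableEq ι] {F : Type*} [Field F]
variable (ρ : G →* Matrix ι ι F) (ord : ι → ℕ)

/-- `g` is monomial with permutation `π`. -/
def IsMon (g : G) (π : Equiv.Perm ι) : Prop := ∀ r c, ρ g r c ≠ 0 ↔ r = π c

/-- `g` is unitriangular. -/
def IsUT (g : G) : Prop := (∀ r c, ord c < ord r → ρ g r c = 0) ∧ ∀ r, ρ g r r = 1

variable {ρ ord}

theorem isMon_one : IsMon ρ (1 : G) 1 := by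
  intro r c
  simp [Matrix.one_apply]

theorem IsMon.mul_apply {g : G} {π : Equiv.Perm ι} (hg : IsMon ρ g π)
    (M : Matrix ι ι F) (r c : ι) : (M * ρ g) r c = M r (π c) * ρ g (π c) c := by
  rw [Matrix.mul_apply, Finset.sum_eq_single (π c)]
  · intro k _ hk
    have : ρ g k c = 0 := by
      by_contra h
      exact hk ((hg k c).1 h)
    rw [this, mul_zero]
  · simp

theorem IsMon.apply_mul {g : G} {π : Equiv.Perm ι} (hg : IsMon ρ g π)
    (M : Matrix ι ι F) (r c : ι) : (ρ g * M) r c = ρ g r (π⁻¹ r) * M (π⁻¹ r) c := by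
  rw [Matrix.mul_apply, Finset.sum_eq_single (π⁻¹ r)]
  · intro k _ hk
    have : ρ g r k = 0 := by
      by_contra h
      apply hk
      rw [(hg r k).1 h]
      simp
    rw [this, zero_mul]
  · simp

theorem IsMon.ne_zero {g : G} {π : Equiv.Perm ι} (hg : IsMon ρ g π) (c : ι) : ρ g (π c) c ≠ 0 :=
  (hg _ _).2 rfl

theorem IsMon.ne_zero' {g : G} {π : Equiv.Perm ι} (hg : IsMon ρ g π) (r : ι) : ρ g r (π⁻¹ r) ≠ 0 :=
  (hg _ _).2 (by simp)

theorem IsMon.mul {g g' : G} {π π' : Equiv.Perm ι} (hg : IsMon ρ g π) (hg' : IsMon ρ g' π') :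
    IsMon ρ (g * g') (π * π') := by
  intro r c
  rw [map_mul, hg'.mul_apply]
  constructor
  · intro h
    exact (hg _ _).1 (left_ne_zero_of_mul h)
  · intro h
    exact mul_ne_zero ((hg _ _).2 h) (hg'.ne_zero c)

theorem IsMon.unique {g : G} {π π' : Equiv.Perm ι} (hg : IsMon ρ g π) (hg' : IsMon ρ g π') : π = π' := by
  ext c
  exact congrArg (fun x => x) ((hg' _ _).1 (hg.ne_zero c))

theorem IsMon.diag_mul {g : G} {π : Equiv.Perm ι} (hg : IsMon ρ g π) (r c : ι) :
    ρ g r (π⁻¹ r) * ρ g⁻¹ (π⁻¹ r) c = if r = c then 1 else 0 := by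
  have h1 : (ρ g * ρ g⁻¹) r c = (1 : Matrix ι ι F) r c := by
    rw [← map_mul, mul_inv_cancel, map_one]
  rw [hg.apply_mul, Matrix.one_apply] at h1
  exact h1

theorem IsMon.inv {g : G} {π : Equiv.Perm ι} (hg : IsMon ρ g π) : IsMon ρ g⁻¹ π⁻¹ := by
  intro r c
  have h := hg.diag_mul (π r) c
  have e0 : π⁻¹ (π r) = r := by simp
  rw [e0] at h
  constructor
  · intro h1
    by_contra h2
    have h3 : π r ≠ c := fun h4 => h2 (by rw [← h4]; simp)
    rw [if_neg h3] at h
    exact (mul_ne_zero (hg.ne_zero r) h1) h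
  · intro h1 h2
    have h3 : π r = c := by rw [h1]; simp
    rw [if_pos h3, h2, mul_zero] at h
    exact zero_ne_one h

/-- Conjugation by a monomial matrix. -/
theorem IsMon.conj_apply {g : G} {π : Equiv.Perm ι} (hg : IsMon ρ g π) (M : Matrix ι ι F) (r c : ι) :
    (ρ g * M * ρ g⁻¹) r c = ρ g r (π⁻¹ r) * M (π⁻¹ r) (π⁻¹ c) * ρ g⁻¹ (π⁻¹ c) c := by
  rw [hg.inv.mul_apply, hg.apply_mul]

theorem IsMon.conj_apply' {g u : G} {π : Equiv.Perm ι} (hg : IsMon ρ g π) (r c : ι) :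
    ρ (g * u * g⁻¹) r c = ρ g r (π⁻¹ r) * ρ u (π⁻¹ r) (π⁻¹ c) * ρ g⁻¹ (π⁻¹ c) c := by
  rw [map_mul, map_mul, hg.conj_apply]

variable (ρ) in
/-- The monomial subgroup. -/
def NSub : Subgroup G where
  carrier := {g | ∃ π, IsMon ρ g π}
  mul_mem' := by
    rintro a b ⟨π, h⟩ ⟨π', h'⟩
    exact ⟨_, h.mul h'⟩
  one_mem' := ⟨1, isMon_one⟩
  inv_mem' := by
    rintro a ⟨π, h⟩
    exact ⟨_, h.inv⟩

variable (ρ) in
/-- The diagonal subgroup. -/
def HSub : Subgroup G where
  carrier := {g | IsMon ρ g 1}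
  mul_mem' := fun {a b} ha hb => by
    have := IsMon.mul ha hb
    rwa [mul_one] at this
  one_mem' := isMon_one
  inv_mem' := fun {a} ha => by
    have := IsMon.inv ha
    rwa [inv_one] at this

theorem mem_HSub {g : G} : g ∈ HSub ρ ↔ IsMon ρ g 1 := Iff.rfl
theorem mem_NSub {g : G} : g ∈ NSub ρ ↔ ∃ π, IsMon ρ g π := Iff.rfl

theorem HSub_le_NSub : HSub ρ ≤ NSub ρ := fun _ h => ⟨1, h⟩

variable (hord : Function.Injective ord)

theorem isUT_one : IsUT ρ ord (1 : G) := by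
  constructor
  · intro r c h
    have : r ≠ c := by
      rintro rfl
      exact lt_irrefl _ h
    simp [Matrix.one_apply, this]
  · intro r
    simp

include hord in
theorem IsUT.mul {a b : G} (ha : IsUT ρ ord a) (hb : IsUT ρ ord b) : IsUT ρ ord (a * b) := by
  constructor
  · intro r c h
    rw [map_mul, Matrix.mul_apply]
    apply Finset.sum_eq_zero
    intro k _
    by_cases h1 : ord k < ord r
    · rw [ha.1 _ _ h1, zero_mul]
    · rw [hb.1 _ _ (lt_of_lt_of_le h (not_lt.1 h1)), mul_zero]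
  · intro r
    rw [map_mul, Matrix.mul_apply, Finset.sum_eq_single r]
    · rw [ha.2, hb.2, one_mul]
    · intro k _ hk
      rcases lt_or_gt_of_ne (fun h => hk (hord h) : ord k ≠ ord r) with h1 | h1
      · rw [ha.1 _ _ h1, zero_mul]
      · rw [hb.1 _ _ h1, mul_zero]
    · simp

theorem inv_mem_of_finite {H : Type*} [Group H] [Finite H] (M : Submonoid H) {s : H} (hs : s ∈ M) :
    s⁻¹ ∈ M := by
  have h1 : s⁻¹ = s ^ (orderOf s - 1) := by
    have h0 : 0 < orderOf s := orderOf_pos s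
    apply inv_eq_of_mul_eq_one_left
    rw [← pow_succ, Nat.sub_add_cancel h0, pow_orderOf_eq_one]
  rw [h1]
  exact M.pow_mem hs _

variable [Finite G]

variable (ρ) in
/-- The unitriangular submonoid. -/
def USubM : Submonoid G where
  carrier := {g | IsUT ρ ord g}
  mul_mem' := fun ha hb => ha.mul hord hb
  one_mem' := isUT_one

variable (ρ) in
/-- The unitriangular subgroup. -/
def USub : Subgroup G where
  toSubmonoid := USubM ρ hord
  inv_mem' := fun {s} hs => inv_mem_of_finite (USubM ρ hord) hs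

theorem mem_USub {g : G} : g ∈ USub ρ hord ↔ IsUT ρ ord g := Iff.rfl

/-- Conjugating a unitriangular element by a monomial element. -/
theorem conj_mem_U {g u : G} {π : Equiv.Perm ι} (hg : IsMon ρ g π) (hu1 : ∀ r, ρ u r r = 1)
    (h : ∀ r c, ord c < ord r → ρ u (π⁻¹ r) (π⁻¹ c) = 0) : g * u * g⁻¹ ∈ USub ρ hord := by
  constructor
  · intro r c hc
    rw [hg.conj_apply', h r c hc]
    simp
  · intro r
    rw [hg.conj_apply', hu1, mul_one, hg.diag_mul, if_pos rfl]

/-- Conjugating by the inverse. -/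
theorem conj_inv_mem_U {n u : G} {π : Equiv.Perm ι} (hg : IsMon ρ n π) (hu1 : ∀ r, ρ u r r = 1)
    (h : ∀ r c, ord c < ord r → ρ u (π r) (π c) = 0) : n⁻¹ * u * n ∈ USub ρ hord := by
  have h1 := conj_mem_U hord hg.inv hu1 (fun r c hc => by simpa using h r c hc)
  rwa [inv_inv] at h1

theorem H_norm_U {h u : G} (hh : h ∈ HSub ρ) (hu : u ∈ USub ρ hord) : h * u * h⁻¹ ∈ USub ρ hord :=
  conj_mem_U hord hh hu.2 (fun r c hc => hu.1 _ _ (by simpa using hc))

theorem H_norm_N {n h : G} (hn : n ∈ NSub ρ) (hh : h ∈ HSub ρ) : n * h * n⁻¹ ∈ HSub ρ := by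
  obtain ⟨π, hπ⟩ := hn
  have h1 := (hπ.mul hh).mul hπ.inv
  rwa [mul_one, mul_inv_cancel] at h1

include hord in
theorem perm_eq_one {π : Equiv.Perm ι} (h : ∀ c, ord (π c) ≤ ord c) : π = 1 := by
  have key : ∀ k : ℕ, ∀ c : ι, ord c = k → π c = c := by
    intro k
    induction k using Nat.strong_induction_on with
    | _ k ih =>
      intro c hc
      by_contra hne
      have h1 : ord (π c) < ord c := lt_of_le_of_ne (h c) (fun h2 => hne (hord h2))
      have h2 := ih (ord (π c)) (by rw [← hc]; exact h1) (π c) rfl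
      exact hne (π.injective h2)
  ext c
  simp [key _ c rfl]

/-- The Borel subgroup consists of upper triangular matrices. -/
theorem up_of_mem {b : G} (hb : b ∈ USub ρ hord ⊔ HSub ρ) {r c : ι} (hc : ord c < ord r) : ρ b r c = 0 := by
  obtain ⟨u, hu, h, hh, rfl⟩ := (mem_sup_iff_of_norm (fun h hh u hu => H_norm_U hord hh hu)).1 hb
  rw [map_mul, IsMon.mul_apply hh]
  simp only [Equiv.Perm.one_apply]
  rw [hu.1 _ _ hc, zero_mul]

theorem BN_inf' : (USub ρ hord ⊔ HSub ρ) ⊓ NSub ρ = HSub ρ := by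
  apply le_antisymm
  · rintro b ⟨hb, ⟨π, hπ⟩⟩
    have h1 : π = 1 := perm_eq_one hord fun c => by
      by_contra h2
      exact hπ.ne_zero c (up_of_mem hord hb (not_le.1 h2))
    rw [h1] at hπ
    exact hπ
  · exact le_inf le_sup_right HSub_le_NSub

/-! ### Nodes -/

variable (ρ) in
/-- The data of a simple root. -/
structure Node where
  φ : SL(2, F) →* G
  Y : Subgroup G
  π : Equiv.Perm ι
  mon_w : IsMon ρ (φ w) π
  d_mem : ∀ a (ha : a ≠ 0), φ (d a ha) ∈ HSub ρ
  x_mem : ∀ t, φ (x t) ∈ USub ρ hord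
  Y_le : Y ≤ USub ρ hord
  dec : ∀ u ∈ USub ρ hord, ∃ t, u * φ (x (-t)) ∈ Y
  Y_norm : ∀ a ∈ Y, φ w * a * (φ w)⁻¹ ∈ Y
  H_norm : ∀ h ∈ HSub ρ, ∀ t, ∃ t', h * φ (x t) * h⁻¹ = φ (x t')
  dich : ∀ n ∈ NSub ρ, (∀ t, n⁻¹ * φ (x t) * n ∈ USub ρ hord) ∨ (∀ t, n⁻¹ * φ (y t) * n ∈ USub ρ hord)
  ne : φ (y 1) ∉ USub ρ hord ⊔ HSub ρ

theorem y_eq (t : F) (ht : t ≠ 0) : y (-t) = x (-t⁻¹) * w * d t ht * x (-t⁻¹) := by
  apply ext2 <;> simp [x, y, w, d] <;> field_simp <;> ring

theorem w_sq : (w : SL(2, F)) * w = d (-1) (by simp) := by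
  apply ext2 <;> simp [w, d]

variable {J : Type*} (node : J → Node ρ hord)

namespace Node

variable {hord} (N : Node ρ hord)

/-- The root group. -/
def X : Subgroup G where
  carrier := {g | ∃ t, g = N.φ (x t)}
  mul_mem' := by
    rintro _ _ ⟨s, rfl⟩ ⟨t, rfl⟩
    exact ⟨s + t, by rw [x_add, map_mul]⟩
  one_mem' := ⟨0, by simp⟩
  inv_mem' := by
    rintro _ ⟨s, rfl⟩
    exact ⟨-s, by rw [← map_inv, x_inv]⟩

theorem mem_X {g : G} : g ∈ N.X ↔ ∃ t, g = N.φ (x t) := Iff.rfl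

/-- The representative. -/
def e : G := N.φ w

theorem conj_x (t : F) : N.e * N.φ (x t) * N.e⁻¹ = N.φ (y (-t)) := by
  rw [e, ← map_inv, ← map_mul, ← map_mul, w_x_w_inv]

theorem e_sq : N.e * N.e ∈ HSub ρ := by
  rw [e, ← map_mul, w_sq]
  exact N.d_mem _ _

end Node

variable {node} (hinj : Function.Injective fun j => (node j).π)
  (hgen : ∀ π, (∃ n, IsMon ρ n π) → ∃ g ∈ Subgroup.closure (Set.range fun j => (node j).e), IsMon ρ g π)

include hinj in
theorem e_injective : Function.Injective fun j => (node j).e := by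
  intro i j h
  apply hinj
  exact (node i).mon_w.unique (by
    have h1 : (node i).e = (node j).e := h
    have h2 : (node i).φ w = (node j).φ w := h1
    rw [h2]
    exact (node j).mon_w)

include hinj hgen in
/-- The root data. -/
noncomputable def core : RootCore G where
  U := USub ρ hord
  H := HSub ρ
  N := NSub ρ
  S := Set.range fun j => (node j).e
  X := Function.extend (fun j => (node j).e) (fun j => (node j).X) (fun _ => ⊥)
  Y := Function.extend (fun j => (node j).e) (fun j => (node j).Y) (fun _ => ⊥)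
  H_le_N := HSub_le_NSub
  H_norm_N := fun n hn h hh => H_norm_N hn hh
  H_norm_U := fun h hh u hu => H_norm_U hord hh hu
  BN_inf := BN_inf' hord
  S_sub := by
    rintro _ ⟨i, rfl⟩
    exact ⟨_, (node i).mon_w⟩
  S_sq := by
    rintro _ ⟨i, rfl⟩
    exact (node i).e_sq
  S_inj := by
    rintro _ ⟨i, rfl⟩ _ ⟨j, rfl⟩ h
    have h1 := (node i).mon_w.inv.mul (node j).mon_w
    have h2 := h1.unique h
    rw [inv_mul_eq_one] at h2
    have h3 : i = j := hinj h2
    rw [h3]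
  S_gen := by
    apply le_antisymm
    · refine sup_le ?_ HSub_le_NSub
      rw [Subgroup.closure_le]
      rintro _ ⟨i, rfl⟩
      exact ⟨_, (node i).mon_w⟩
    · rintro g ⟨π, hπ⟩
      obtain ⟨a, ha, ha'⟩ := hgen π ⟨g, hπ⟩
      have e : g = a * (a⁻¹ * g) := by group
      rw [e]
      refine Subgroup.mul_mem_sup ha ?_
      have h1 := ha'.inv.mul hπ
      rwa [inv_mul_cancel] at h1
  X_le := by
    rintro _ ⟨i, rfl⟩ _ hx
    rw [(e_injective hord hinj).extend_apply] at hx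
    obtain ⟨a, rfl⟩ := hx
    exact (node i).x_mem a
  Y_le := by
    rintro _ ⟨i, rfl⟩ _ hx
    rw [(e_injective hord hinj).extend_apply] at hx
    exact (node i).Y_le hx
  decomp := by
    rintro _ ⟨i, rfl⟩ u hu
    rw [(e_injective hord hinj).extend_apply, (e_injective hord hinj).extend_apply]
    obtain ⟨t, ht⟩ := (node i).dec u hu
    refine ⟨_, ht, (node i).φ (x t), ⟨t, rfl⟩, ?_⟩
    rw [mul_assoc, ← map_mul, ← x_add]
    simp
  Y_norm := by
    rintro _ ⟨i, rfl⟩ a ha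
    rw [(e_injective hord hinj).extend_apply] at ha ⊢
    exact (node i).Y_norm a ha
  H_norm_X := by
    rintro _ ⟨i, rfl⟩ h hh x' hx
    rw [(e_injective hord hinj).extend_apply] at hx ⊢
    obtain ⟨a, rfl⟩ := hx
    obtain ⟨t', ht⟩ := (node i).H_norm h hh a
    exact ⟨t', ht⟩
  sl2 := by
    rintro _ ⟨i, rfl⟩ x' hx
    rw [(e_injective hord hinj).extend_apply] at hx ⊢
    obtain ⟨t, rfl⟩ := hx
    by_cases ht : t = 0
    · left
      subst ht
      simp
    · right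
      refine ⟨_, ⟨-t⁻¹, rfl⟩, (node i).φ (d t ht), (node i).d_mem t ht, _, ⟨-t⁻¹, rfl⟩, ?_⟩
      show (node i).e * _ * (node i).e⁻¹ = _
      rw [Node.conj_x, y_eq t ht]
      simp only [map_mul, Node.e]
  dichotomy := by
    rintro _ ⟨i, rfl⟩ n hn
    rw [(e_injective hord hinj).extend_apply]
    rcases (node i).dich n hn with h | h
    · left
      rintro _ ⟨a, rfl⟩
      exact h a
    · right
      rintro _ ⟨a, rfl⟩
      show n⁻¹ * ((node i).e * _ * (node i).e⁻¹) * n ∈ _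
      rw [Node.conj_x]
      exact h _
  conj_ne := by
    rintro _ ⟨i, rfl⟩
    rw [(e_injective hord hinj).extend_apply]
    refine ⟨_, ⟨-1, rfl⟩, ?_⟩
    show (node i).e * _ * (node i).e⁻¹ ∉ _
    rw [Node.conj_x, neg_neg]
    exact (node i).ne

/-- The pair on the ambient group. -/
def toBN (R : RootCore G) (hG : (R.U ⊔ R.H) ⊔ R.N = ⊤) : BNPair G where
  B := R.U ⊔ R.H
  N := R.N
  S := R.S
  sup_eq_top := hG
  conj_mem := by
    intro n hn t ht
    rw [R.BN_inf] at ht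
    exact R.H_le_B (R.H_norm_N _ hn _ ht)
  subset := R.S_sub
  sq_mem := fun s hs => R.H_le_B (R.S_sq _ hs)
  inj := by
    intro s hs s' hs' h
    refine R.S_inj _ hs _ hs' ?_
    rw [← R.BN_inf]
    exact ⟨h, R.N.mul_mem (R.N.inv_mem (R.S_sub hs)) (R.S_sub hs')⟩
  closure_sup := by
    rw [R.BN_inf]
    exact R.S_gen
  mul_mem_union := by
    intro s hs n hn b hb
    rcases R.mul_mem_aux hs hn hb with ⟨b₁, hb₁, b₂, hb₂, e⟩ | ⟨b₁, hb₁, b₂, hb₂, e⟩
    · left
      exact DoubleCoset.mem_doubleCoset.mpr ⟨b₁, hb₁, b₂, hb₂, e⟩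
    · right
      exact DoubleCoset.mem_doubleCoset.mpr ⟨b₁, hb₁, b₂, hb₂, e⟩
  conj_ne := by
    intro s hs himg
    obtain ⟨x, hx, hnot⟩ := R.conj_ne _ hs
    have hxB : x ∈ R.U ⊔ R.H := R.U_le_B (R.X_le _ hs hx)
    have hmem : s * x * s ∈ ((R.U ⊔ R.H : Subgroup G) : Set G) := by
      rw [← himg]
      exact ⟨x, hxB, rfl⟩
    apply hnot
    have hsq : s * s ∈ R.U ⊔ R.H := R.H_le_B (R.S_sq _ hs)
    have e : s * x * s⁻¹ = (s * x * s) * (s * s)⁻¹ := by group
    rw [e]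
    exact Subgroup.mul_mem _ hmem (Subgroup.inv_mem _ hsq)

end Cfsg.Agent.Lib.StGen.Mono
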