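import Mathlib
import Cfsg.Agent.Lib.StGen.Mono

/-!
A builder for the Steinberg character of a group of monomial-by-unitriangular matrices, from
data attached to the simple roots.
-/

set_option autoImplicit false
set_option linter.unusedSectionVars false
set_option linter.unusedSimpArgs false

namespace Cfsg.Agent.Lib.StGen.Builder

open Matrix Cfsg Cfsg.Agent.Lib.PSL2.Basic Cfsg.Agent.Lib.ChevBN.Core Cfsg.Agent.Lib.BNPair.Basic
open Cfsg.Agent.Lib.ChevOrder.BNCount Cfsg.Agent.Lib.StGen.Mono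
open scoped MatrixGroups

variable {G : Type*} [Group G] {ι : Type*} [Fintype ι] [DecidableEq ι] {F : Type*} [Field F]
variable {ρ : G →* Matrix ι ι F} {ord : ι → ℕ}

section PGroup

variable {p : ℕ} [hp : Fact p.Prime] [CharP F p]

theorem pow_entry {N : Matrix ι ι F} (hN : ∀ r c, N r c ≠ 0 → ord r + 1 ≤ ord c) (k : ℕ) :
    ∀ r c, (N ^ k) r c ≠ 0 → ord r + k ≤ ord c := by
  induction k with
  | zero =>
    intro r c h
    rw [pow_zero, Matrix.one_apply] at h
    have : r = c := by
      by_contra h1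
      exact h (if_neg h1)
    subst this
    simp
  | succ k ih =>
    intro r c h
    rw [pow_succ, Matrix.mul_apply] at h
    obtain ⟨j, -, hj⟩ := Finset.exists_ne_zero_of_sum_ne_zero h
    have h1 := ih r j (left_ne_zero_of_mul hj)
    have h2 := hN j c (right_ne_zero_of_mul hj)
    omega

theorem pow_eq_zero {N : Matrix ι ι F} (hN : ∀ r c, N r c ≠ 0 → ord r + 1 ≤ ord c) {k : ℕ}
    (hk : ∀ c, ord c < k) : N ^ k = 0 := by
  ext r c
  by_contra h
  have h1 := pow_entry hN k r c h
  have h2 := hk c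
  simp only [Matrix.zero_apply] at h
  omega

/-- Unitriangular elements have `p`-power order. -/
theorem exists_pow_eq_one [Nonempty ι] (hρ : Function.Injective ρ) (hord : Function.Injective ord) {u : G} (hu : IsUT ρ ord u) :
    ∃ k : ℕ, u ^ p ^ k = 1 := by
  haveI : CharP (Matrix ι ι F) p := Matrix.charP p
  let K := (Finset.univ.sup ord) + 1
  have hK : ∀ c, ord c < K := fun c => Nat.lt_succ_of_le (Finset.le_sup (Finset.mem_univ c))
  let N : Matrix ι ι F := ρ u - 1
  have hN : ∀ r c, N r c ≠ 0 → ord r + 1 ≤ ord c := by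
    intro r c h
    by_contra h1
    apply h
    simp only [N, Matrix.sub_apply, Matrix.one_apply]
    rcases Nat.lt_or_ge (ord c) (ord r) with h2 | h2
    · have h3 : r ≠ c := by
        rintro rfl
        exact lt_irrefl _ h2
      rw [hu.1 _ _ h2, if_neg h3, sub_zero]
    · have h3 : r = c := hord (by omega)
      subst h3
      rw [hu.2, if_pos rfl, sub_self]
  have hpK : K ≤ p ^ K := (Nat.lt_pow_self hp.out.one_lt).le
  have hN0 : N ^ p ^ K = 0 := pow_eq_zero hN (fun c => lt_of_lt_of_le (hK c) hpK)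
  refine ⟨K, hρ ?_⟩
  rw [map_pow, map_one]
  have h1 : ρ u = 1 + N := by simp [N]
  rw [h1, add_pow_char_pow_of_commute _ _ (Commute.one_left _), hN0]
  simp

variable (hord : Function.Injective ord)

theorem isPGroup_USub [Finite G] [Nonempty ι] (hρ : Function.Injective ρ) : IsPGroup p (USub ρ hord) := by
  rintro ⟨u, hu⟩
  obtain ⟨k, hk⟩ := exists_pow_eq_one (p := p) hρ hord hu
  exact ⟨k, Subtype.ext (by simpa using hk)⟩

theorem HSub_pow {h : G} (hh : IsMon ρ h 1) (k : ℕ) (r : ι) : ρ (h ^ k) r r = (ρ h r r) ^ k := by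
  induction k with
  | zero => simp
  | succ k ih =>
    rw [pow_succ, map_mul, hh.mul_apply, pow_succ, Equiv.Perm.one_apply, ih]

theorem not_dvd_HSub [Finite G] (hρ : Function.Injective ρ) : ¬ p ∣ Nat.card (HSub ρ) := by
  intro hdvd
  haveI : Fact p.Prime := hp
  obtain ⟨x, hx⟩ := exists_prime_orderOf_dvd_card' p hdvd
  have h1 : (x : G) ^ p = 1 := by
    have := pow_orderOf_eq_one x
    rw [hx] at this
    exact_mod_cast congrArg Subtype.val this
  have hxm : IsMon ρ (x : G) 1 := x.2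
  have h2 : ∀ r, ρ (x : G) r r = 1 := by
    intro r
    have h3 := HSub_pow hxm p r
    rw [h1, map_one, Matrix.one_apply_eq] at h3
    have h4 : (ρ (x : G) r r - 1) ^ p = 0 := by
      rw [sub_pow_char, ← h3]
      simp
    have h5 := pow_eq_zero_iff (hp.out.ne_zero) |>.1 h4
    exact sub_eq_zero.1 h5
  have h3 : ρ (x : G) = 1 := by
    ext r c
    by_cases hrc : r = c
    · subst hrc
      rw [h2, Matrix.one_apply_eq]
    · rw [Matrix.one_apply_ne hrc]
      by_contra h4
      exact hrc ((hxm r c).1 h4)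
  have h4 : (x : G) = 1 := hρ (by rw [h3, map_one])
  have h5 : x = 1 := Subtype.ext h4
  rw [h5, orderOf_one] at hx
  exact hp.out.one_lt.ne hx

end PGroup

variable [Finite G] (hord : Function.Injective ord)

variable (ρ) in
/-- The data of a simple root. -/
structure RootData where
  φ : SL(2, F) →* G
  π : Equiv.Perm ι
  a : ι
  b : ι
  hab : ord a < ord b
  a' : ι
  b' : ι
  hab' : ord a' < ord b'
  Sx : ι → ι → Prop
  Sx_ab : Sx a' b'
  Sx_ord : ∀ r c, Sx r c → ord r < ord c
  mon_w : IsMon ρ (φ w) π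
  π_a : π a' = b'
  π_b : π b' = a'
  inv_ab : ord (π⁻¹ b) < ord (π⁻¹ a)
  d_mem : ∀ t (ht : t ≠ 0), IsMon ρ (φ (d t ht)) 1
  x_diag : ∀ t r, ρ (φ (x t)) r r = 1
  y_diag : ∀ t r, ρ (φ (y t)) r r = 1
  x_supp : ∀ t r c, r ≠ c → ρ (φ (x t)) r c ≠ 0 → Sx r c
  y_supp : ∀ t r c, r ≠ c → ρ (φ (y t)) r c ≠ 0 → Sx c r
  x_ab : ∀ t, ρ (φ (x t)) a b = t
  y_ba : ρ (φ (y 1)) b a ≠ 0
  add : ∀ u v, IsUT ρ ord u → IsUT ρ ord v → ρ (u * v) a b = ρ u a b + ρ v a b
  van : ∀ u, IsUT ρ ord u → ρ u a b = 0 → ∀ r c, ord r < ord c → ord (π c) < ord (π r) → ρ u r c = 0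
  H_norm : ∀ h, IsMon ρ h 1 → ∀ t, ∃ t', h * φ (x t) * h⁻¹ = φ (x t')
  dich : ∀ n π', IsMon ρ n π' → (∀ r c, Sx r c → ord (π'⁻¹ r) < ord (π'⁻¹ c)) ∨
    (∀ r c, Sx r c → ord (π'⁻¹ c) < ord (π'⁻¹ r))

namespace RootData

variable {hord} (D : RootData ρ (ord := ord))

theorem x_up (t : F) {r c : ι} (h : ord c < ord r) : ρ (D.φ (x t)) r c = 0 := by
  by_contra h1
  have hrc : r ≠ c := by
    rintro rfl
    exact lt_irrefl _ h
  have := D.Sx_ord _ _ (D.x_supp t r c hrc h1)
  omega

theorem x_isUT (t : F) : IsUT ρ ord (D.φ (x t)) := ⟨fun _ _ h => D.x_up t h, D.x_diag t⟩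

/-- The complement of the root group. -/
def Y : Subgroup G where
  carrier := {u | IsUT ρ ord u ∧ ρ u D.a D.b = 0}
  mul_mem' := by
    rintro u v ⟨hu, hu'⟩ ⟨hv, hv'⟩
    exact ⟨hu.mul hord hv, by rw [D.add u v hu hv, hu', hv', add_zero]⟩
  one_mem' := ⟨isUT_one, by
    have : D.a ≠ D.b := by
      intro h
      have := D.hab
      rw [h] at this
      exact lt_irrefl _ this
    simp [Matrix.one_apply, this]⟩
  inv_mem' := by
    rintro u ⟨hu, hu'⟩
    have h1 : u⁻¹ ∈ USub ρ hord := (USub ρ hord).inv_mem hu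
    refine ⟨h1, ?_⟩
    have h2 := D.add u u⁻¹ hu h1
    rw [mul_inv_cancel, map_one, hu', zero_add, Matrix.one_apply_ne] at h2
    · exact h2.symm
    · intro h
      have := D.hab
      rw [h] at this
      exact lt_irrefl _ this

/-- The node. -/
def node : Node ρ hord where
  φ := D.φ
  Y := Y (hord := hord) D
  π := D.π
  mon_w := D.mon_w
  d_mem := D.d_mem
  x_mem := D.x_isUT
  Y_le := fun _ h => h.1
  dec := by
    intro u hu
    refine ⟨ρ u D.a D.b, show _ ∈ Y (hord := hord) D from ⟨?_, ?_⟩⟩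
    · exact IsUT.mul hord hu (D.x_isUT _)
    · rw [D.add _ _ hu (D.x_isUT _), D.x_ab]
      ring
  Y_norm := by
    rintro u ⟨hu, hu'⟩
    have hmon := D.mon_w
    show _ ∈ Y (hord := hord) D
    have h1 : D.φ w * u * (D.φ w)⁻¹ ∈ USub ρ hord := by
      refine conj_mem_U hord hmon hu.2 ?_
      intro r c hc
      by_cases h2 : ord (D.π⁻¹ c) < ord (D.π⁻¹ r)
      · exact hu.1 _ _ h2
      · have h3 : D.π⁻¹ r ≠ D.π⁻¹ c := fun h => by
          have := D.π⁻¹.injective h
          subst this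
          exact lt_irrefl _ hc
        have h4 : ord (D.π⁻¹ r) < ord (D.π⁻¹ c) :=
          lt_of_le_of_ne (not_lt.1 h2) (fun h => h3 (hord h))
        refine D.van u hu hu' _ _ h4 ?_
        simpa using hc
    refine ⟨h1, ?_⟩
    rw [hmon.conj_apply', hu.1 _ _ D.inv_ab]
    simp
  H_norm := fun h hh t => D.H_norm h hh t
  dich := by
    rintro n ⟨π', hπ⟩
    rcases D.dich n π' hπ with h | h
    · left
      intro t
      refine conj_inv_mem_U hord hπ (D.x_diag t) ?_
      intro r c hc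
      by_contra h1
      have hrc : π' r ≠ π' c := fun h2 => by
        have := π'.injective h2
        subst this
        exact lt_irrefl _ hc
      have h2 := h _ _ (D.x_supp t _ _ hrc h1)
      have e1 : ∀ z, π'⁻¹ (π' z) = z := fun z => by simp
      rw [e1, e1] at h2
      omega
    · right
      intro t
      refine conj_inv_mem_U hord hπ (D.y_diag t) ?_
      intro r c hc
      by_contra h1
      have hrc : π' r ≠ π' c := fun h2 => by
        have := π'.injective h2
        subst this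
        exact lt_irrefl _ hc
      have h2 := h _ _ (D.y_supp t _ _ hrc h1)
      have e1 : ∀ z, π'⁻¹ (π' z) = z := fun z => by simp
      rw [e1, e1] at h2
      omega
  ne := by
    intro h
    have h1 := up_of_mem hord h D.hab
    exact D.y_ba h1

theorem node_e : (D.node (hord := hord)).e = D.φ w := rfl

end RootData

/-! ### Generation of the Weyl group -/

open Classical in
/-- The inversions of a permutation, among the pairs in the relation `Rel`. -/
noncomputable def Inv (ord : ι → ℕ) (Rel : ι → ι → Prop) (π : Equiv.Perm ι) : Finset (ι × ι) :=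
  Finset.univ.filter fun q => Rel q.1 q.2 ∧ ord q.1 < ord q.2 ∧ ord (π q.2) < ord (π q.1)

theorem mem_Inv {Rel : ι → ι → Prop} {π : Equiv.Perm ι} {q : ι × ι} :
    q ∈ Inv ord Rel π ↔ Rel q.1 q.2 ∧ ord q.1 < ord q.2 ∧ ord (π q.2) < ord (π q.1) := by
  simp [Inv]

include hord in
theorem card_Inv_lt {Rel : ι → ι → Prop} {π τ : Equiv.Perm ι} {a b : ι} {S : ι → ι → Prop} (hab : ord a < ord b)
    (hRab : Rel a b) (hR : ∀ c r, Rel c r → Rel (τ c) (τ r))
    (hSab : S a b) (ha : τ a = b) (hb : τ b = a)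
    (hτ : ∀ c r, Rel c r → ord c < ord r → ord (τ r) < ord (τ c) → S (τ r) (τ c))
    (hπ : ∀ r c, S r c → ord (π c) < ord (π r)) :
    (Inv ord Rel (π * τ)).card < (Inv ord Rel π).card := by
  classical
  let f : ι × ι → ι × ι := fun q => (τ q.1, τ q.2)
  have hf : Function.Injective f := by
    rintro ⟨c, r⟩ ⟨c', r'⟩ h
    simp only [f, Prod.mk.injEq] at h
    rw [τ.injective h.1, τ.injective h.2]
  rw [← Finset.card_image_of_injective _ hf]
  apply Finset.card_lt_card
  rw [Finset.ssubset_iff_of_subset]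
  · refine ⟨(a, b), ?_, ?_⟩
    · rw [mem_Inv]
      exact ⟨hRab, hab, hπ _ _ hSab⟩
    · intro h
      obtain ⟨⟨c, r⟩, h1, h2⟩ := Finset.mem_image.1 h
      simp only [f, Prod.mk.injEq] at h2
      have h3 : c = b := τ.injective (by rw [h2.1, hb])
      have h4 : r = a := τ.injective (by rw [h2.2, ha])
      subst h3 h4
      rw [mem_Inv] at h1
      have := h1.2.1
      simp only at this
      omega
  · intro q hq
    obtain ⟨⟨c, r⟩, h1, rfl⟩ := Finset.mem_image.1 hq
    rw [mem_Inv] at h1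
    simp only [Equiv.Perm.mul_apply] at h1
    rw [mem_Inv]
    simp only [f]
    refine ⟨hR _ _ h1.1, ?_, h1.2.2⟩
    by_contra h2
    have h3 : ord (τ r) < ord (τ c) := by
      refine lt_of_le_of_ne (not_lt.1 h2) ?_
      intro h4
      have h5 : r = c := τ.injective (hord h4)
      subst h5
      exact lt_irrefl _ h1.2.1
    have h4 := hπ _ _ (hτ c r h1.1 h1.2.1 h3)
    have h5 := h1.2.2
    omega

variable {hord}

variable {J : Type*} (D : J → RootData ρ (ord := ord))

section Gen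

variable {Rel : ι → ι → Prop} (hRel : ∀ j c r, Rel c r → Rel ((D j).π c) ((D j).π r))
  (hRab : ∀ j, Rel (D j).a' (D j).b')
  (hτ : ∀ j c r, Rel c r → ord c < ord r → ord ((D j).π r) < ord ((D j).π c) →
    (D j).Sx ((D j).π r) ((D j).π c))
  (hflip : ∀ π, (∃ n, IsMon ρ n π) → π ≠ 1 → ∃ j, ∀ r c, (D j).Sx r c → ord (π c) < ord (π r))

include hord hRel hRab hτ hflip in
theorem exists_word (k : ℕ) : ∀ π, (Inv ord Rel π).card = k → (∃ n, IsMon ρ n π) →
    ∃ g ∈ Subgroup.closure (Set.range fun j => (D j).φ w), IsMon ρ g π := by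
  induction k using Nat.strong_induction_on with
  | _ k ih =>
    rintro π hk ⟨n, hn⟩
    by_cases hπ : π = 1
    · subst hπ
      exact ⟨1, Subgroup.one_mem _, isMon_one⟩
    obtain ⟨j, hj⟩ := hflip π ⟨n, hn⟩ hπ
    have hlt := card_Inv_lt hord (D j).hab' (hRab j) (hRel j) (D j).Sx_ab (D j).π_a (D j).π_b (hτ j) hj
    rw [hk] at hlt
    obtain ⟨g, hg, hg'⟩ := ih _ hlt (π * (D j).π) rfl ⟨_, hn.mul (D j).mon_w⟩
    refine ⟨g * ((D j).φ w)⁻¹, Subgroup.mul_mem _ hg (Subgroup.inv_mem _ (Subgroup.subset_closure ⟨j, rfl⟩)), ?_⟩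
    have h1 := hg'.mul (D j).mon_w.inv
    rwa [mul_inv_cancel_right] at h1

end Gen

/-! ### Assembly -/

variable (hinj : Function.Injective fun j => (D j).π)
  (hword : ∀ π, (∃ n, IsMon ρ n π) → ∃ g ∈ Subgroup.closure (Set.range fun j => (D j).φ w), IsMon ρ g π)

include hinj hword in
/-- The root data. -/
noncomputable def rootCore (hord : Function.Injective ord) : RootCore G :=
  core (node := fun j => (D j).node (hord := hord)) hord hinj hword

theorem rootCore_U : (rootCore D hinj hword hord).U = USub ρ hord := rfl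
theorem rootCore_H : (rootCore D hinj hword hord).H = HSub ρ := rfl
theorem rootCore_N : (rootCore D hinj hword hord).N = NSub ρ := rfl

section Main

variable {p : ℕ} [hp : Fact p.Prime] [CharP F p] [Nonempty ι] (hρ : Function.Injective ρ)
  (hG : (USub ρ hord ⊔ HSub ρ) ⊔ NSub ρ = ⊤)
  (hanti : ∀ n π, IsMon ρ n π → (∀ j r c, (D j).Sx r c → ord (π⁻¹ c) < ord (π⁻¹ r)) →
    ∀ x ∈ USub ρ hord ⊔ HSub ρ, n⁻¹ * x * n ∈ USub ρ hord ⊔ HSub ρ → x ∈ HSub ρ)

/-- The `(B,N)`-pair. -/
noncomputable def pair : BNPair G := toBN (rootCore D hinj hword hord) hG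

include hρ hanti in
theorem hyp : Final.Hyp (pair D hinj hword hG) p (USub ρ hord) (fun j => (D j).φ w) := by
  have hH : ∀ h ∈ HSub ρ, ∀ u ∈ USub ρ hord, h * u * h⁻¹ ∈ USub ρ hord :=
    fun h hh u hu => H_norm_U hord hh hu
  refine
  { hU := isPGroup_USub hord hρ
    U_le := (le_sup_left : USub ρ hord ≤ USub ρ hord ⊔ HSub ρ)
    U_norm := ?_
    B_dec := ?_
    T_cop := ?_
    he := fun j => ⟨j, rfl⟩
    hes := ?_
    hne := ?_
    hT := ?_ }
  · intro b hb u hu
    obtain ⟨v, hv, h, hh, rfl⟩ := (mem_sup_iff_of_norm hH).1 hb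
    have h1 := hH h hh u hu
    have e : v * h * u * (v * h)⁻¹ = v * (h * u * h⁻¹) * v⁻¹ := by group
    rw [e]
    exact Subgroup.mul_mem _ (Subgroup.mul_mem _ hv h1) (Subgroup.inv_mem _ hv)
  · intro b hb
    obtain ⟨v, hv, h, hh, rfl⟩ := (mem_sup_iff_of_norm hH).1 hb
    exact ⟨v, hv, h, ⟨Subgroup.mem_sup_right hh, HSub_le_NSub hh⟩, rfl⟩
  · have h1 : (pair D hinj hword hG).B ⊓ (pair D hinj hword hG).N = HSub ρ := BN_inf' hord
    rw [h1]
    exact not_dvd_HSub hρ
  · rintro _ ⟨j, rfl⟩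
    exact ⟨j, rfl⟩
  · rintro _ ⟨j, rfl⟩
    refine ⟨(D j).φ (x (-1)), (D j).x_isUT _, ?_⟩
    have h1 : (D j).φ w * (D j).φ (x (-1)) * ((D j).φ w)⁻¹ = (D j).φ (y 1) := by
      have := ((D j).node (hord := hord)).conj_x (-1)
      rw [neg_neg] at this
      exact this
    show (D j).φ w * (D j).φ (x (-1)) * ((D j).φ w)⁻¹ ∉ USub ρ hord ⊔ HSub ρ
    rw [h1]
    exact ((D j).node (hord := hord)).ne
  · rintro n ⟨π, hπ⟩ hlen x' hx' hn'
    have h1 : ∀ j r c, (D j).Sx r c → ord (π⁻¹ c) < ord (π⁻¹ r) := by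
      intro j r c hS
      rcases (D j).dich n π hπ with h | h
      · exfalso
        have h2 := hlen j
        have hU : n⁻¹ * (D j).φ (x (-1)) * n ∈ USub ρ hord := by
          refine conj_inv_mem_U hord hπ ((D j).x_diag _) ?_
          intro r c hc
          by_contra h1
          have hrc : π r ≠ π c := fun h2 => by
            have := π.injective h2
            subst this
            exact lt_irrefl _ hc
          have h2 := h _ _ ((D j).x_supp _ _ _ hrc h1)
          have e1 : ∀ z, π⁻¹ (π z) = z := fun z => by simp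
          rw [e1, e1] at h2
          omega
        have h3 : (D j).φ w * (D j).φ (x (-1)) * ((D j).φ w)⁻¹ = (D j).φ (y 1) := by
          have := ((D j).node (hord := hord)).conj_x (-1)
          rw [neg_neg] at this
          exact this
        have h4 := len_lt_of_conj (P := pair D hinj hword hG) (s := (D j).φ w) (n := n)
          (x := (D j).φ (x (-1))) ⟨j, rfl⟩ ⟨π, hπ⟩ (Subgroup.mem_sup_left ((D j).x_isUT _))
          (by
            rw [h3]
            exact ((D j).node (hord := hord)).ne)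
          (Subgroup.mem_sup_left hU)
        omega
      · exact h r c hS
    have h2 := hanti n π hπ h1 x' hx' hn'
    have h3 : (pair D hinj hword hG).B ⊓ (pair D hinj hword hG).N = HSub ρ := BN_inf' hord
    rw [h3]
    exact h2

variable (p) in
include hinj hword hρ hG hanti in
/-- The Steinberg character of the central quotient. -/
theorem main [Fintype J] [DecidableEq J] :
    ∃ χ : (G ⧸ Subgroup.center G) → ℂ, Cfsg.IsIrrCharacter (G ⧸ Subgroup.center G) χ ∧
    ∀ Q : Sylow p (G ⧸ Subgroup.center G), χ 1 = Nat.card Q ∧ ∀ x : G ⧸ Subgroup.center G, x ∈ Q → x ≠ 1 → χ x = 0 :=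
  Final.quot_main _ (hyp D hinj hword hρ hG hanti)

end Main

end Cfsg.Agent.Lib.StGen.Builder
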