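import Mathlib
import Cfsg.Agent.Lib.StGen.Builder

/-!
Chains of positions: the simple roots cover all consecutive positions.
-/

set_option autoImplicit false
set_option linter.unusedSectionVars false
set_option linter.unusedSimpArgs false

namespace Cfsg.Agent.Lib.StGen.Chain

open Matrix Cfsg Cfsg.Agent.Lib.PSL2.Basic Cfsg.Agent.Lib.ChevBN.Core
open Cfsg.Agent.Lib.StGen.Mono Cfsg.Agent.Lib.StGen.Builder
open scoped MatrixGroups

variable {G : Type*} [Group G] {ι : Type*} [Fintype ι] [DecidableEq ι] {F : Type*} [Field F]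
variable {ρ : G →* Matrix ι ι F} {ord : ι → ℕ}

theorem chain_of_consec {R : ι → ι → Prop} (hR : ∀ a b c, R a b → R b c → R a c)
    (hsurj : ∀ i k, k < ord i → ∃ j, ord j = k) (hc : ∀ r c, ord c = ord r + 1 → R r c) :
    ∀ r c, ord r < ord c → R r c := by
  have key : ∀ d r c, ord c = ord r + d + 1 → R r c := by
    intro d
    induction d with
    | zero => exact fun r c h => hc r c h
    | succ d ih =>
      intro r c h
      obtain ⟨c', hc'⟩ := hsurj c (ord r + d + 1) (by omega)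
      exact hR _ _ _ (ih r c' hc') (hc c' c (by omega))
  intro r c h
  exact key (ord c - ord r - 1) r c (by omega)

theorem eq_one_of_mono (hord : Function.Injective ord) {π : Equiv.Perm ι}
    (h : ∀ r c, ord r < ord c → ord (π r) < ord (π c)) : π = 1 := by
  refine perm_eq_one hord fun c => ?_
  by_contra hc
  have hc' : ord c < ord (π c) := not_le.1 hc
  have key : ∀ k : ℕ, ord c < ord ((π ^ (k + 1)) c) := by
    intro k
    induction k with
    | zero => simpa using hc'
    | succ k ih =>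
      have h1 := h _ _ ih
      have e : π ((π ^ (k + 1)) c) = (π ^ (k + 1 + 1)) c := by
        rw [pow_succ' π (k + 1)]
        rfl
      rw [e] at h1
      exact lt_trans hc' h1
  have h0 := orderOf_pos π
  have h1 := key (orderOf π - 1)
  rw [Nat.sub_add_cancel h0, pow_orderOf_eq_one] at h1
  exact lt_irrefl _ h1

/-- Additivity at adjacent positions. -/
theorem add_of_adj (hord : Function.Injective ord) {a b : ι} (hab : ord b = ord a + 1) {u v : G}
    (hu : IsUT ρ ord u) (hv : IsUT ρ ord v) : ρ (u * v) a b = ρ u a b + ρ v a b := by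
  have hne : a ≠ b := by
    rintro rfl
    omega
  rw [map_mul, Matrix.mul_apply, Finset.sum_eq_add_of_mem a b (Finset.mem_univ _) (Finset.mem_univ _) hne,
    hu.2, hv.2, one_mul, mul_one, add_comm]
  intro k _ hk
  obtain ⟨hk1, hk2⟩ := hk
  have h1 : ord k ≠ ord a := fun h => hk1 (hord h)
  have h2 : ord k ≠ ord b := fun h => hk2 (hord h)
  by_cases h3 : ord k < ord a
  · rw [hu.1 _ _ h3, zero_mul]
  · rw [hv.1 _ _ (by omega : ord b < ord k), mul_zero]

theorem sl2_bruhat (z : SL(2, F)) :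
    (∃ t a, ∃ ha : a ≠ 0, z = x t * d a ha) ∨ ∃ t a, ∃ ha : a ≠ 0, ∃ s, z = x t * w * d a ha * x s := by
  by_cases hr : z.1 1 0 = 0
  · left
    have hdet := det_entries z
    rw [hr, mul_zero, sub_zero] at hdet
    have h0 : z.1 0 0 ≠ 0 := left_ne_zero_of_mul_eq_one hdet
    have h1 : z.1 1 1 = (z.1 0 0)⁻¹ := eq_inv_of_mul_eq_one_right hdet
    refine ⟨z.1 0 1 * z.1 0 0, z.1 0 0, h0, ?_⟩
    apply ext2
    · simp [x, d]
    · simp [x, d, h0]
    · simp [x, d, hr]
    · simp [x, d, h1]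
  · right
    have hdet := det_entries z
    refine ⟨z.1 0 0 / z.1 1 0, -z.1 1 0, neg_ne_zero.2 hr, z.1 1 1 / z.1 1 0, ?_⟩
    apply ext2
    · simp [x, d, w]
      field_simp
    · simp [x, d, w]
      field_simp
      linear_combination (-1 : F) * hdet
    · simp [x, d, w]
    · simp [x, d, w]
      field_simp

variable [Finite G]

/-- The `SL₂` of a node lies in the group generated by `U`, `H`, `N`. -/
theorem RootData.mem_sup {hord : Function.Injective ord} (D : RootData ρ (ord := ord)) (z : SL(2, F)) :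
    D.φ z ∈ (USub ρ hord ⊔ HSub ρ) ⊔ NSub ρ := by
  have hx : ∀ t, D.φ (x t) ∈ (USub ρ hord ⊔ HSub ρ) ⊔ NSub ρ := fun t =>
    Subgroup.mem_sup_left (Subgroup.mem_sup_left (D.x_isUT t))
  have hd : ∀ a ha, D.φ (d a ha) ∈ (USub ρ hord ⊔ HSub ρ) ⊔ NSub ρ := fun a ha =>
    Subgroup.mem_sup_left (Subgroup.mem_sup_right (D.d_mem a ha))
  have hw : D.φ w ∈ (USub ρ hord ⊔ HSub ρ) ⊔ NSub ρ :=
    Subgroup.mem_sup_right ⟨_, D.mon_w⟩
  rcases sl2_bruhat z with ⟨t, a, ha, rfl⟩ | ⟨t, a, ha, s, rfl⟩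
  · rw [map_mul]
    exact Subgroup.mul_mem _ (hx t) (hd a ha)
  · simp only [map_mul]
    exact Subgroup.mul_mem _ (Subgroup.mul_mem _ (Subgroup.mul_mem _ (hx t) hw) (hd a ha)) (hx s)

/-- If the conjugate by `n` reverses the order, only diagonal elements stay in the Borel subgroup. -/
theorem anti_conj {hord : Function.Injective ord} {n : G} {π : Equiv.Perm ι} (hπ : IsMon ρ n π)
    {x' : G} (hx : x' ∈ USub ρ hord ⊔ HSub ρ) (hy : n⁻¹ * x' * n ∈ USub ρ hord ⊔ HSub ρ)
    (h : ∀ r c, ord r < ord c → ρ x' r c ≠ 0 → ord (π⁻¹ c) < ord (π⁻¹ r)) : x' ∈ HSub ρ := by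
  intro r c
  simp only [Equiv.Perm.one_apply]
  constructor
  · intro h1
    by_contra hrc
    rcases lt_or_gt_of_ne (fun h2 => hrc (hord h2) : ord r ≠ ord c) with h2 | h2
    · have h3 := h r c h2 h1
      have h4 := up_of_mem hord hy h3
      have e : n⁻¹ * x' * n = n⁻¹ * x' * (n⁻¹)⁻¹ := by rw [inv_inv]
      rw [e, hπ.inv.conj_apply'] at h4
      have e1 : ∀ z, (π⁻¹)⁻¹ (π⁻¹ z) = z := fun z => by simp
      rw [e1, e1] at h4
      have h5 := hπ.inv.ne_zero (r)
      have h6 := hπ.inv.inv.ne_zero (π⁻¹ c)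
      rw [e1] at h6
      exact mul_ne_zero (mul_ne_zero h5 h1) h6 h4
    · exact h1 (up_of_mem hord hx h2)
  · rintro rfl
    obtain ⟨u, hu, h', hh, rfl⟩ := (mem_sup_iff_of_norm (fun h hh u hu => H_norm_U hord hh hu)).1 hx
    rw [map_mul, IsMon.mul_apply hh]
    simp only [Equiv.Perm.one_apply]
    rw [hu.2, one_mul]
    exact (hh r r).2 rfl

section Main

variable {hord : Function.Injective ord} {J : Type*} (D : J → RootData ρ (ord := ord))
  (hinj : Function.Injective fun j => (D j).π)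
  (hτ : ∀ j c r, ord c < ord r → ord ((D j).π r) < ord ((D j).π c) →
    (D j).Sx ((D j).π r) ((D j).π c))
  (hsurj : ∀ i k, k < ord i → ∃ j, ord j = k)
  (hcov : ∀ r c, ord c = ord r + 1 → ∃ j, (D j).Sx r c)

include hord hsurj hcov in
theorem flip_of_cov (π : Equiv.Perm ι) (hn : ∃ n, IsMon ρ n π) (hπ : π ≠ 1) :
    ∃ j, ∀ r c, (D j).Sx r c → ord (π c) < ord (π r) := by
  obtain ⟨n, hn⟩ := hn
  by_contra hcon
  push Not at hcon
  apply hπ
  have hkeep : ∀ j r c, (D j).Sx r c → ord (π r) < ord (π c) := by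
    intro j
    obtain ⟨r₀, c₀, h0, h1⟩ := hcon j
    rcases (D j).dich n⁻¹ π⁻¹ hn.inv with h | h
    · intro r c hS
      simpa using h r c hS
    · exfalso
      have h2 := h r₀ c₀ h0
      simp only [inv_inv] at h2
      omega
  refine eq_one_of_mono hord ?_
  refine chain_of_consec (R := fun r c => ord (π r) < ord (π c)) (fun a b c h1 h2 => lt_trans h1 h2) hsurj ?_
  intro r c hc
  obtain ⟨j, hj⟩ := hcov r c hc
  exact hkeep j r c hj

variable {p : ℕ} [hp : Fact p.Prime] [CharP F p] [Nonempty ι] (hρ : Function.Injective ρ)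
  (hG : (USub ρ hord ⊔ HSub ρ) ⊔ NSub ρ = ⊤)

variable (p) in
include hinj hτ hsurj hcov hρ hG in
/-- The Steinberg character of the central quotient. -/
theorem main [Fintype J] [DecidableEq J] :
    ∃ χ : (G ⧸ Subgroup.center G) → ℂ, Cfsg.IsIrrCharacter (G ⧸ Subgroup.center G) χ ∧
    ∀ Q : Sylow p (G ⧸ Subgroup.center G), χ 1 = Nat.card Q ∧ ∀ x : G ⧸ Subgroup.center G, x ∈ Q → x ≠ 1 → χ x = 0 := by
  refine Builder.main D hinj (fun π hn => exists_word (hord := hord) D (Rel := fun _ _ => True)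
    (fun _ _ _ _ => trivial) (fun _ => trivial) (fun j c r _ => hτ j c r) (flip_of_cov (hord := hord) D hsurj hcov) _ π rfl hn)
    p hρ hG ?_
  intro n π hπ hj x' hx hy
  refine anti_conj hπ hx hy fun r c hrc _ => ?_
  refine chain_of_consec (R := fun r c => ord (π⁻¹ c) < ord (π⁻¹ r)) (fun a b c h1 h2 => lt_trans h2 h1) hsurj ?_ r c hrc
  intro r c hc
  obtain ⟨j, hj'⟩ := hcov r c hc
  exact hj j r c hj'

end Main

end Cfsg.Agent.Lib.StGen.Chain
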