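import Mathlib
import Cfsg.Agent.Lib.StGen.Chain
import Cfsg.Agent.Lib.PresSp.RealSp
import Cfsg.Agent.Lib.StBlocks.SLPair

/-!
The root data of the symplectic group.
-/

set_option autoImplicit false
set_option linter.unusedSectionVars false
set_option linter.unusedSimpArgs false

namespace Cfsg.Agent.Lib.StGen.SpPair

open Matrix Cfsg Cfsg.Agent.Lib.PSL2.Basic Sum
open Cfsg.Agent.Lib.StGen.Mono Cfsg.Agent.Lib.StGen.Builder Cfsg.Agent.Lib.StGen.Chain
open Cfsg.Agent.Lib.PresSp.RealSp Cfsg.Agent.Lib.Classical.Lin.Blocks Cfsg.Agent.Lib.PresSL.Real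
open Cfsg.Agent.Lib.Steinberg.LinearStem SymplecticGroup
open scoped MatrixGroups

variable {n : ℕ} {F : Type*} [Field F]

/-- The index type. -/
abbrev Idx (n : ℕ) := Fin (n + 1) ⊕ Fin (n + 1)

/-- The group. -/
abbrev SpG (n : ℕ) (F : Type*) [Field F] := symplecticGroup (Fin (n + 1)) F

/-- The inclusion. -/
def rh : SpG n F →* Matrix (Idx n) (Idx n) F where
  toFun g := g.1
  map_one' := rfl
  map_mul' _ _ := rfl

theorem rh_apply (g : SpG n F) : rh g = g.1 := rfl

theorem rh_inj : Function.Injective (rh : SpG n F →* Matrix (Idx n) (Idx n) F) := Subtype.val_injective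

/-- The order of the positions. -/
def ordS : Idx n → ℕ
  | inl i => i
  | inr i => 2 * n + 1 - i

@[simp] theorem ordS_inl (i : Fin (n + 1)) : ordS (inl i) = i := rfl
@[simp] theorem ordS_inr (i : Fin (n + 1)) : ordS (inr i) = 2 * n + 1 - i := rfl

theorem ordS_inj : Function.Injective (ordS : Idx n → ℕ) := by
  rintro (a | a) (b | b) h <;> simp only [ordS_inl, ordS_inr] at h <;> have ha := a.2 <;> have hb := b.2
  · exact congrArg inl (Fin.ext h)
  · omega
  · omega
  · exact congrArg inr (Fin.ext (by omega))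

theorem ordS_swap (r : Idx n) : ordS (Sum.swap r) = 2 * n + 1 - ordS r := by
  rcases r with a | a <;> simp only [Sum.swap_inl, Sum.swap_inr, ordS_inl, ordS_inr] <;> have ha := a.2 <;> omega

theorem ordS_le (r : Idx n) : ordS r ≤ 2 * n + 1 := by
  rcases r with a | a <;> simp only [ordS_inl, ordS_inr] <;> have ha := a.2 <;> omega

/-! ### The form -/

local notation "JJ" => Matrix.J (Fin (n + 1)) F

theorem J_ll (r c : Fin (n + 1)) : (JJ) (inl r) (inl c) = 0 := rfl
theorem J_rr (r c : Fin (n + 1)) : (JJ) (inr r) (inr c) = 0 := rfl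
theorem J_lr (r c : Fin (n + 1)) : (JJ) (inl r) (inr c) = if r = c then -1 else 0 := by
  simp only [Matrix.J, fromBlocks_apply₁₂, Matrix.neg_apply, Matrix.one_apply]
  split_ifs <;> simp
theorem J_rl (r c : Fin (n + 1)) : (JJ) (inr r) (inl c) = if r = c then 1 else 0 := by
  simp [Matrix.J, Matrix.one_apply]

theorem J_ne {R C : Idx n} (h : (JJ) R C ≠ 0) : C = Sum.swap R := by
  rcases R with r | r <;> rcases C with c | c
  · exact absurd (J_ll r c) h
  · rw [J_lr] at h
    by_cases h1 : r = c
    · simp [h1]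
    · simp [h1] at h
  · rw [J_rl] at h
    by_cases h1 : r = c
    · simp [h1]
    · simp [h1] at h
  · exact absurd (J_rr r c) h

theorem J_swap (R : Idx n) : (JJ) R (Sum.swap R) ≠ 0 := by
  rcases R with r | r
  · simp [J_lr]
  · simp [J_rl]

theorem transpose_mul_J (g : SpG n F) : (g.1)ᵀ * JJ * g.1 = JJ := mem_iff'.1 g.2

theorem mon_J {g : SpG n F} {π : Equiv.Perm (Idx n)} (hg : IsMon rh g π) (r c : Idx n) :
    g.1 (π r) r * (JJ) (π r) (π c) * g.1 (π c) c = (JJ) r c := by
  have h1 := congrFun (congrFun (transpose_mul_J g) r) c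
  have h2 := hg.mul_apply ((g.1)ᵀ * JJ) r c
  rw [rh_apply] at h2
  rw [h2] at h1
  rw [← h1]
  congr 1
  rw [Matrix.mul_apply, Finset.sum_eq_single (π r)]
  · rw [Matrix.transpose_apply]
  · intro k _ hk
    rw [Matrix.transpose_apply]
    have : g.1 k r = 0 := by
      by_contra h
      exact hk ((hg k r).1 h)
    rw [this, zero_mul]
  · simp

/-- Monomial elements commute with the pairing of the positions. -/
theorem mon_swap {g : SpG n F} {π : Equiv.Perm (Idx n)} (hg : IsMon rh g π) (r : Idx n) :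
    π (Sum.swap r) = Sum.swap (π r) := by
  apply J_ne (F := F)
  intro h
  have h1 := mon_J hg r (Sum.swap r)
  rw [h, mul_zero, zero_mul] at h1
  exact J_swap r h1.symm

/-- The form in terms of the entries. -/
theorem form (g : SpG n F) (r c : Idx n) :
    ∑ k, (g.1 r (inr k) * g.1 c (inl k) - g.1 r (inl k) * g.1 c (inr k)) = (JJ) r c := by
  have hg : g.1 * JJ * (g.1)ᵀ = JJ := mem_iff.1 g.2
  have h1 := congrFun (congrFun hg r) c
  rw [← h1, Matrix.mul_apply, Fintype.sum_sum_type, ← Finset.sum_add_distrib]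
  refine Finset.sum_congr rfl fun k _ => ?_
  have h2 : ∀ l, (g.1 * JJ) r (inl l) = g.1 r (inr l) := by
    intro l
    rw [Matrix.mul_apply, Fintype.sum_sum_type]
    simp only [J_ll, mul_zero, Finset.sum_const_zero, zero_add, J_rl, mul_ite, mul_one]
    simp
  have h3 : ∀ l, (g.1 * JJ) r (inr l) = -g.1 r (inl l) := by
    intro l
    rw [Matrix.mul_apply, Fintype.sum_sum_type]
    simp only [J_rr, mul_zero, Finset.sum_const_zero, add_zero, J_lr, mul_ite, mul_neg, mul_one]
    simp
  rw [h2, h3, Matrix.transpose_apply, Matrix.transpose_apply]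
  ring

/-- The entries of unitriangular elements in the mirrored positions. -/
theorem form_UT {u : SpG n F} (hu : IsUT rh ordS u) {A B : Fin (n + 1)} (hAB : (B : ℕ) = A + 1) :
    u.1 (inr B) (inr A) = -u.1 (inl A) (inl B) := by
  have hne : A ≠ B := by
    rintro rfl
    omega
  have h1 := form u (inl A) (inr B)
  rw [J_lr, if_neg hne] at h1
  have hB := B.2
  have h2 : ∀ k, u.1 (inr B) (inl k) = 0 := fun k => by
    have hk := k.2
    exact hu.1 _ _ (by simp only [ordS_inl, ordS_inr]; omega)
  simp only [h2, mul_zero, zero_sub] at h1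
  rw [Finset.sum_neg_distrib, neg_eq_zero, Finset.sum_eq_add_of_mem A B (Finset.mem_univ _) (Finset.mem_univ _) hne] at h1
  · have h3 : u.1 (inl A) (inl A) = 1 := hu.2 _
    have h4 : u.1 (inr B) (inr B) = 1 := hu.2 _
    rw [h3, h4, one_mul, mul_one] at h1
    exact eq_neg_of_add_eq_zero_left h1
  · rintro k _ ⟨hk1, hk2⟩
    by_cases h3 : (k : ℕ) < A
    · rw [show u.1 (inl A) (inl k) = 0 from hu.1 _ _ (by simpa using h3), zero_mul]
    · have h4 : (B : ℕ) < k := by
        have h5 : (k : ℕ) ≠ A := fun h => hk1 (Fin.ext h)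
        have h6 : (k : ℕ) ≠ B := fun h => hk2 (Fin.ext h)
        omega
      have hk := k.2
      rw [show u.1 (inr B) (inr k) = 0 from hu.1 _ _ (by simp only [ordS_inr]; omega), mul_zero]

/-- The diagonal entries. -/
theorem diag_inv {h : SpG n F} (hh : IsMon rh h 1) (i : Fin (n + 1)) :
    h.1 (inr i) (inr i) = (h.1 (inl i) (inl i))⁻¹ := by
  have h1 := mon_J hh (inl i) (inr i)
  simp only [Equiv.Perm.one_apply, J_lr, if_true] at h1
  have h2 : h.1 (inl i) (inl i) * h.1 (inr i) (inr i) = 1 := by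
    have h3 : h.1 (inl i) (inl i) * -1 * h.1 (inr i) (inr i) = -1 := h1
    linear_combination (-1 : F) * h3
  exact eq_inv_of_mul_eq_one_right h2

/-! ### Levi elements -/

theorem hatH_ll (M : Matrix.SpecialLinearGroup (Fin (n + 1)) F) (r c : Fin (n + 1)) :
    (hatH M).1 (inl r) (inl c) = M.1 r c := by
  rw [hatH_coe, fromBlocks_apply₁₁]

theorem hatH_rr (M : Matrix.SpecialLinearGroup (Fin (n + 1)) F) (r c : Fin (n + 1)) :
    (hatH M).1 (inr r) (inr c) = (M⁻¹).1 c r := by
  rw [hatH_coe, fromBlocks_apply₂₂, Matrix.transpose_apply]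

theorem hatH_lr (M : Matrix.SpecialLinearGroup (Fin (n + 1)) F) (r c : Fin (n + 1)) :
    (hatH M).1 (inl r) (inr c) = 0 := by
  rw [hatH_coe, fromBlocks_apply₁₂, Matrix.zero_apply]

theorem hatH_rl (M : Matrix.SpecialLinearGroup (Fin (n + 1)) F) (r c : Fin (n + 1)) :
    (hatH M).1 (inr r) (inl c) = 0 := by
  rw [hatH_coe, fromBlocks_apply₂₁, Matrix.zero_apply]

/-- Monomial matrices of the Levi subgroup. -/
theorem hatH_isMon {M : Matrix.SpecialLinearGroup (Fin (n + 1)) F} {σ : Equiv.Perm (Fin (n + 1))}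
    (h : ∀ r c, M.1 r c ≠ 0 ↔ r = σ c) (h' : ∀ r c, (M⁻¹).1 c r ≠ 0 ↔ r = σ c) :
    IsMon rh (hatH M) (Equiv.sumCongr σ σ) := by
  rintro (r | r) (c | c)
  · rw [rh_apply, hatH_ll, h]
    simp
  · rw [rh_apply, hatH_lr]
    simp
  · rw [rh_apply, hatH_rl]
    simp
  · rw [rh_apply, hatH_rr, h']
    simp

/-! ### The short roots -/

section Short

variable (i : Fin n)

theorem hi : i.castSucc ≠ i.succ := (Fin.castSucc_lt_succ).ne

/-- The homomorphism attached to a short simple root. -/
noncomputable def φs : SL(2, F) →* SpG n F := hatH.comp (rho (hi i))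

theorem φs_ll (z : SL(2, F)) (r c : Fin (n + 1)) :
    (φs i z).1 (inl r) (inl c) = (rho (hi i) z).1 r c := hatH_ll _ _ _

theorem φs_rr (z : SL(2, F)) (r c : Fin (n + 1)) :
    (φs i z).1 (inr r) (inr c) = (rho (hi i) z⁻¹).1 c r := by
  have h := hatH_rr (rho (hi i) z) r c
  rw [← map_inv] at h
  exact h

theorem φs_lr (z : SL(2, F)) (r c : Fin (n + 1)) : (φs i z).1 (inl r) (inr c) = 0 := hatH_lr _ _ _
theorem φs_rl (z : SL(2, F)) (r c : Fin (n + 1)) : (φs i z).1 (inr r) (inl c) = 0 := hatH_rl _ _ _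

theorem rho_x_apply {A B : Fin (n + 1)} (hab : A ≠ B) (t : F) (r c : Fin (n + 1)) :
    (rho hab (x t)).1 r c = if r = c then 1 else if r = A ∧ c = B then t else 0 := by
  rw [rho_entry]
  simp only [x_00, x_01, x_10, x_11]
  split_ifs <;> simp_all

theorem rho_y_apply {A B : Fin (n + 1)} (hab : A ≠ B) (t : F) (r c : Fin (n + 1)) :
    (rho hab (y t)).1 r c = if r = c then 1 else if r = B ∧ c = A then t else 0 := by
  rw [rho_entry]
  simp only [y_00, y_01, y_10, y_11]
  split_ifs <;> simp_all

theorem rho_w_mon {A B : Fin (n + 1)} (hab : A ≠ B) (r c : Fin (n + 1)) :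
    (rho hab w).1 r c ≠ (0 : F) ↔ r = Equiv.swap A B c := by
  rw [rho_entry, Equiv.swap_apply_def]
  simp only [w_00, w_01, w_10, w_11]
  split_ifs <;> simp_all [eq_comm]

theorem rho_winv_mon {A B : Fin (n + 1)} (hab : A ≠ B) (r c : Fin (n + 1)) :
    (rho hab (w⁻¹)).1 c r ≠ (0 : F) ↔ r = Equiv.swap A B c := by
  rw [rho_entry, Equiv.swap_apply_def]
  simp only [inv_00, inv_01, inv_10, inv_11, w_00, w_01, w_10, w_11]
  split_ifs <;> simp_all [eq_comm]

theorem rho_d_mon {A B : Fin (n + 1)} (hab : A ≠ B) (t : F) (ht : t ≠ 0) (r c : Fin (n + 1)) :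
    (rho hab (d t ht)).1 r c ≠ (0 : F) ↔ r = c := by
  rw [rho_entry]
  simp only [d_00, d_01, d_10, d_11]
  split_ifs <;> simp_all [eq_comm]

theorem rho_diag_mon {A B : Fin (n + 1)} (hab : A ≠ B) {z : SL(2, F)} (h01 : z.1 0 1 = 0) (h10 : z.1 1 0 = 0)
    (r c : Fin (n + 1)) : (rho hab z).1 r c ≠ (0 : F) ↔ r = c := by
  have hdet := det_entries z
  rw [h01, zero_mul, sub_zero] at hdet
  have h0 : z.1 0 0 ≠ 0 := left_ne_zero_of_mul_eq_one hdet
  have h1 : z.1 1 1 ≠ 0 := right_ne_zero_of_mul_eq_one hdet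
  rw [rho_entry, h01, h10]
  clear h01 h10 hdet
  split_ifs <;> simp_all [eq_comm]

theorem swap_lt (i : Fin n) {c r : Fin (n + 1)} (h : c < r) (hne : ¬ (c = i.castSucc ∧ r = i.succ)) :
    Equiv.swap i.castSucc i.succ c < Equiv.swap i.castSucc i.succ r := by
  simp only [Equiv.swap_apply_def]
  split_ifs <;> simp only [Fin.ext_iff, Fin.lt_def, Fin.val_castSucc, Fin.val_succ] at * <;> omega

theorem short_inv {r c : Idx n} (h1 : ordS r < ordS c)
    (h2 : ordS (Equiv.sumCongr (Equiv.swap i.castSucc i.succ) (Equiv.swap i.castSucc i.succ) c) <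
      ordS (Equiv.sumCongr (Equiv.swap i.castSucc i.succ) (Equiv.swap i.castSucc i.succ) r)) :
    (r = inl i.castSucc ∧ c = inl i.succ) ∨ (r = inr i.succ ∧ c = inr i.castSucc) := by
  rcases r with k | k <;> rcases c with l | l
  · simp only [Equiv.sumCongr_apply, Sum.map_inl, ordS_inl] at h1 h2
    left
    by_contra h3
    have h4 := swap_lt i (show k < l from h1) (fun h5 => h3 ⟨by rw [h5.1], by rw [h5.2]⟩)
    have h5 : (Equiv.swap i.castSucc i.succ k : ℕ) < (Equiv.swap i.castSucc i.succ l : ℕ) := h4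
    omega
  · exfalso
    simp only [Equiv.sumCongr_apply, Sum.map_inl, Sum.map_inr, ordS_inl, ordS_inr] at h1 h2
    have h3 := (Equiv.swap i.castSucc i.succ k).2
    have h4 := (Equiv.swap i.castSucc i.succ l).2
    omega
  · exfalso
    simp only [ordS_inl, ordS_inr] at h1
    have h3 := k.2
    have h4 := l.2
    omega
  · simp only [Equiv.sumCongr_apply, Sum.map_inr, ordS_inr] at h1 h2
    right
    by_contra h3
    have h6 := k.2
    have h7 := l.2
    have h8 : l < k := by
      rw [Fin.lt_def]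
      omega
    have h4 := swap_lt i h8 (fun h5 => h3 ⟨by rw [h5.2], by rw [h5.1]⟩)
    have h5 : (Equiv.swap i.castSucc i.succ l : ℕ) < (Equiv.swap i.castSucc i.succ k : ℕ) := h4
    have h9 := (Equiv.swap i.castSucc i.succ k).2
    have h10 := (Equiv.swap i.castSucc i.succ l).2
    omega

end Short

/-- The entries of the conjugate by a diagonal element. -/
theorem diag_conj {h : SpG n F} (hh : IsMon rh h 1) (u : SpG n F) (r c : Idx n) :
    (h * u * h⁻¹).1 r c = h.1 r r * u.1 r c * (h.1 c c)⁻¹ := by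
  have h1 := hh.conj_apply' (u := u) r c
  simp only [inv_one, Equiv.Perm.one_apply] at h1
  have h2 := hh.diag_mul c c
  simp only [inv_one, Equiv.Perm.one_apply, if_true] at h2
  have h3 : rh h⁻¹ c c = (h.1 c c)⁻¹ := eq_inv_of_mul_eq_one_right h2
  rw [h3] at h1
  exact h1

theorem diag_ne {h : SpG n F} (hh : IsMon rh h 1) (r : Idx n) : h.1 r r ≠ 0 := (hh r r).2 rfl

theorem diag_off {h : SpG n F} (hh : IsMon rh h 1) {r c : Idx n} (hrc : r ≠ c) : h.1 r c = 0 := by
  by_contra h1
  exact hrc ((hh r c).1 h1)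

variable [Fintype F]

instance : Finite (SpG n F) := Subtype.finite

/-- The data of a short simple root. -/
noncomputable def shortData (i : Fin n) : RootData (rh (n := n) (F := F)) (ord := ordS) where
  φ := φs i
  π := Equiv.sumCongr (Equiv.swap i.castSucc i.succ) (Equiv.swap i.castSucc i.succ)
  a := inl i.castSucc
  b := inl i.succ
  hab := by simp
  a' := inl i.castSucc
  b' := inl i.succ
  hab' := by simp
  inv_ab := by
    have e1 : (Equiv.sumCongr (Equiv.swap i.castSucc i.succ) (Equiv.swap i.castSucc i.succ))⁻¹ (inl i.succ) = inl i.castSucc := by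
      rw [Equiv.Perm.inv_eq_iff_eq]
      simp
    have e2 : (Equiv.sumCongr (Equiv.swap i.castSucc i.succ) (Equiv.swap i.castSucc i.succ))⁻¹ (inl i.castSucc) = inl i.succ := by
      rw [Equiv.Perm.inv_eq_iff_eq]
      simp
    rw [e1, e2]
    simp
  Sx r c := (r = inl i.castSucc ∧ c = inl i.succ) ∨ (r = inr i.succ ∧ c = inr i.castSucc)
  Sx_ab := Or.inl ⟨rfl, rfl⟩
  Sx_ord := by
    rintro r c (⟨rfl, rfl⟩ | ⟨rfl, rfl⟩) <;> simp <;> have := i.2 <;> omega
  mon_w := by
    refine hatH_isMon (rho_w_mon (hi i)) ?_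
    intro r c
    rw [← map_inv]
    exact rho_winv_mon (hi i) r c
  π_a := by simp
  π_b := by simp
  d_mem := by
    intro t ht
    have h := hatH_isMon (M := rho (hi i) (d t ht)) (σ := 1) (fun r c => rho_diag_mon (hi i) (by simp) (by simp) r c)
      (fun r c => by
        rw [← map_inv, rho_diag_mon (hi i) (by simp) (by simp) c r, eq_comm]
        rfl)
    have e : Equiv.sumCongr (1 : Equiv.Perm (Fin (n + 1))) (1 : Equiv.Perm (Fin (n + 1))) = (1 : Equiv.Perm (Idx n)) :=
      Equiv.ext (by rintro (a | a) <;> rfl)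
    rw [e] at h
    exact h
  x_diag := by
    rintro t (r | r)
    · show (φs i (x t)).1 _ _ = 1
      rw [φs_ll, rho_x_apply, if_pos rfl]
    · show (φs i (x t)).1 _ _ = 1
      rw [φs_rr, x_inv, rho_x_apply, if_pos rfl]
  y_diag := by
    rintro t (r | r)
    · show (φs i (y t)).1 _ _ = 1
      rw [φs_ll, rho_y_apply, if_pos rfl]
    · show (φs i (y t)).1 _ _ = 1
      rw [φs_rr, y_inv, rho_y_apply, if_pos rfl]
  x_supp := by
    rintro t (r | r) (c | c) hrc h <;> change (φs i (x t)).1 _ _ ≠ 0 at h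
    · rw [φs_ll, rho_x_apply, if_neg (fun h1 => hrc (by rw [h1]))] at h
      left
      by_cases h1 : r = i.castSucc ∧ c = i.succ
      · exact ⟨by rw [h1.1], by rw [h1.2]⟩
      · rw [if_neg h1] at h
        exact absurd rfl h
    · exact absurd (φs_lr i _ r c) h
    · exact absurd (φs_rl i _ r c) h
    · rw [φs_rr, x_inv, rho_x_apply, if_neg (fun h1 => hrc (by rw [h1]))] at h
      right
      by_cases h1 : c = i.castSucc ∧ r = i.succ
      · exact ⟨by rw [h1.2], by rw [h1.1]⟩
      · rw [if_neg h1] at h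
        exact absurd rfl h
  y_supp := by
    rintro t (r | r) (c | c) hrc h <;> change (φs i (y t)).1 _ _ ≠ 0 at h
    · rw [φs_ll, rho_y_apply, if_neg (fun h1 => hrc (by rw [h1]))] at h
      left
      by_cases h1 : r = i.succ ∧ c = i.castSucc
      · exact ⟨by rw [h1.2], by rw [h1.1]⟩
      · rw [if_neg h1] at h
        exact absurd rfl h
    · exact absurd (φs_lr i _ r c) h
    · exact absurd (φs_rl i _ r c) h
    · rw [φs_rr, y_inv, rho_y_apply, if_neg (fun h1 => hrc (by rw [h1]))] at h
      right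
      by_cases h1 : c = i.succ ∧ r = i.castSucc
      · exact ⟨by rw [h1.1], by rw [h1.2]⟩
      · rw [if_neg h1] at h
        exact absurd rfl h
  x_ab := by
    intro t
    show (φs i (x t)).1 _ _ = t
    rw [φs_ll, rho_x_apply, if_neg (hi i), if_pos ⟨rfl, rfl⟩]
  y_ba := by
    show (φs i (y 1)).1 _ _ ≠ 0
    rw [φs_ll, rho_y_apply, if_neg (hi i).symm, if_pos ⟨rfl, rfl⟩]
    exact one_ne_zero
  add := by
    intro u v hu hv
    exact add_of_adj ordS_inj (by simp) hu hv
  van := by
    intro u hu h0 r c h1 h2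
    rcases short_inv i h1 h2 with ⟨rfl, rfl⟩ | ⟨rfl, rfl⟩
    · exact h0
    · have h3 := form_UT hu (A := i.castSucc) (B := i.succ) (by simp)
      have h4 : u.1 (inl i.castSucc) (inl i.succ) = 0 := h0
      rw [h4, neg_zero] at h3
      exact h3
  H_norm := by
    intro h hh t
    refine ⟨h.1 (inl i.castSucc) (inl i.castSucc) * t * (h.1 (inl i.succ) (inl i.succ))⁻¹, ?_⟩
    apply Subtype.ext
    ext r c
    rw [diag_conj hh]
    have hA := diag_ne hh (inl i.castSucc)
    have hB := diag_ne hh (inl i.succ)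
    rcases r with r | r <;> rcases c with c | c
    · rw [φs_ll, φs_ll, rho_x_apply, rho_x_apply]
      by_cases h1 : r = c
      · subst h1
        simp only [if_true, mul_one]
        exact mul_inv_cancel₀ (diag_ne hh _)
      · rw [if_neg h1, if_neg h1]
        by_cases h2 : r = i.castSucc ∧ c = i.succ
        · rw [if_pos h2, if_pos h2, h2.1, h2.2]
        · rw [if_neg h2, if_neg h2]
          simp
    · rw [φs_lr, φs_lr]
      simp
    · rw [φs_rl, φs_rl]
      simp
    · rw [φs_rr, φs_rr, x_inv, x_inv, rho_x_apply, rho_x_apply]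
      by_cases h1 : c = r
      · subst h1
        simp only [if_true, mul_one]
        exact mul_inv_cancel₀ (diag_ne hh _)
      · rw [if_neg h1, if_neg h1]
        by_cases h2 : c = i.castSucc ∧ r = i.succ
        · rw [if_pos h2, if_pos h2, h2.1, h2.2, diag_inv hh, diag_inv hh]
          field_simp
        · rw [if_neg h2, if_neg h2]
          simp
  dich := by
    intro n' π' hn
    have hs : ∀ r, π'⁻¹ (Sum.swap r) = Sum.swap (π'⁻¹ r) := mon_swap hn.inv
    have e1 : π'⁻¹ (inr i.succ) = Sum.swap (π'⁻¹ (inl i.succ)) := hs (inl i.succ)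
    have e2 : π'⁻¹ (inr i.castSucc) = Sum.swap (π'⁻¹ (inl i.castSucc)) := hs (inl i.castSucc)
    have h3 := ordS_le (π'⁻¹ (inl i.succ))
    have h4 := ordS_le (π'⁻¹ (inl i.castSucc))
    have h5 : ordS (π'⁻¹ (inl i.castSucc)) ≠ ordS (π'⁻¹ (inl i.succ)) := fun h => by
      have h6 := π'⁻¹.injective (ordS_inj h)
      exact hi i (Sum.inl_injective h6)
    rcases lt_or_gt_of_ne h5 with h6 | h6
    · left
      rintro r c (⟨rfl, rfl⟩ | ⟨rfl, rfl⟩)
      · exact h6
      · rw [e1, e2, ordS_swap, ordS_swap]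
        omega
    · right
      rintro r c (⟨rfl, rfl⟩ | ⟨rfl, rfl⟩)
      · exact h6
      · rw [e1, e2, ordS_swap, ordS_swap]
        omega

/-! ### The long root -/

theorem bl_ll (o : Fin (n + 1)) (z : SL(2, F)) (r c : Fin (n + 1)) :
    (bl o z).1 (inl r) (inl c) = if r = c then (if r = o then z.1 0 0 else 1) else 0 := by
  rw [bl_coe, fromBlocks_apply₁₁, Matrix.diagonal_apply]

theorem bl_lr (o : Fin (n + 1)) (z : SL(2, F)) (r c : Fin (n + 1)) :
    (bl o z).1 (inl r) (inr c) = if r = c then (if r = o then z.1 0 1 else 0) else 0 := by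
  rw [bl_coe, fromBlocks_apply₁₂, Matrix.diagonal_apply]

theorem bl_rl (o : Fin (n + 1)) (z : SL(2, F)) (r c : Fin (n + 1)) :
    (bl o z).1 (inr r) (inl c) = if r = c then (if r = o then z.1 1 0 else 0) else 0 := by
  rw [bl_coe, fromBlocks_apply₂₁, Matrix.diagonal_apply]

theorem bl_rr (o : Fin (n + 1)) (z : SL(2, F)) (r c : Fin (n + 1)) :
    (bl o z).1 (inr r) (inr c) = if r = c then (if r = o then z.1 1 1 else 1) else 0 := by
  rw [bl_coe, fromBlocks_apply₂₂, Matrix.diagonal_apply]

theorem long_inv {r c : Idx n} (h1 : ordS r < ordS c)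
    (h2 : ordS (Equiv.swap (inl (Fin.last n)) (inr (Fin.last n)) c) < ordS (Equiv.swap (inl (Fin.last n)) (inr (Fin.last n)) r)) :
    r = inl (Fin.last n) ∧ c = inr (Fin.last n) := by
  have hpos : ∀ z : Idx n, ordS z = n → z = inl (Fin.last n) := fun z h => ordS_inj (by rw [h]; simp)
  have hpos' : ∀ z : Idx n, ordS z = n + 1 → z = inr (Fin.last n) := fun z h => ordS_inj (by rw [h]; simp; omega)
  have h3 : ordS (inl (Fin.last n) : Idx n) = n := by simp
  have h4 : ordS (inr (Fin.last n) : Idx n) = n + 1 := by simp; omega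
  by_cases hr1 : r = inl (Fin.last n)
  · subst hr1
    rw [Equiv.swap_apply_left, h4] at h2
    refine ⟨rfl, ?_⟩
    by_cases hc1 : c = inr (Fin.last n)
    · exact hc1
    · rw [h3] at h1
      have hc2 : c ≠ inl (Fin.last n) := by
        rintro rfl
        simp at h1
      rw [Equiv.swap_apply_of_ne_of_ne hc2 hc1] at h2
      have : ordS c = n + 1 := by omega
      exact hpos' c this
  · exfalso
    by_cases hr2 : r = inr (Fin.last n)
    · subst hr2
      rw [Equiv.swap_apply_right, h3] at h2
      rw [h4] at h1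
      have hc1 : c ≠ inl (Fin.last n) := by
        rintro rfl
        simp at h1
      have hc2 : c ≠ inr (Fin.last n) := by
        rintro rfl
        rw [h4] at h1
        exact lt_irrefl _ h1
      rw [Equiv.swap_apply_of_ne_of_ne hc1 hc2] at h2
      omega
    · rw [Equiv.swap_apply_of_ne_of_ne hr1 hr2] at h2
      have h5 : ordS r ≠ n := fun h => hr1 (hpos r h)
      have h6 : ordS r ≠ n + 1 := fun h => hr2 (hpos' r h)
      by_cases hc1 : c = inl (Fin.last n)
      · subst hc1
        rw [Equiv.swap_apply_left, h4] at h2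
        rw [h3] at h1
        omega
      · by_cases hc2 : c = inr (Fin.last n)
        · subst hc2
          rw [Equiv.swap_apply_right, h3] at h2
          rw [h4] at h1
          omega
        · rw [Equiv.swap_apply_of_ne_of_ne hc1 hc2] at h2
          omega

/-- The data of the long simple root. -/
noncomputable def longData : RootData (rh (n := n) (F := F)) (ord := ordS) where
  φ := bl (Fin.last n)
  π := Equiv.swap (inl (Fin.last n)) (inr (Fin.last n))
  a := inl (Fin.last n)
  b := inr (Fin.last n)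
  hab := by simp; omega
  a' := inl (Fin.last n)
  b' := inr (Fin.last n)
  hab' := by simp; omega
  inv_ab := by
    have e1 : (Equiv.swap (inl (Fin.last n)) (inr (Fin.last n)) : Equiv.Perm (Idx n))⁻¹ (inr (Fin.last n)) = inl (Fin.last n) := by
      rw [Equiv.Perm.inv_eq_iff_eq]
      simp
    have e2 : (Equiv.swap (inl (Fin.last n)) (inr (Fin.last n)) : Equiv.Perm (Idx n))⁻¹ (inl (Fin.last n)) = inr (Fin.last n) := by
      rw [Equiv.Perm.inv_eq_iff_eq]
      simp
    rw [e1, e2]
    simp
    omega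
  Sx r c := r = inl (Fin.last n) ∧ c = inr (Fin.last n)
  Sx_ab := ⟨rfl, rfl⟩
  Sx_ord := by
    rintro r c ⟨rfl, rfl⟩
    simp
    omega
  mon_w := by
    rintro (r | r) (c | c) <;> change (bl (Fin.last n) w).1 _ _ ≠ 0 ↔ _
    · rw [bl_ll]
      simp only [w_00]
      rw [Equiv.swap_apply_def]
      by_cases h1 : c = Fin.last n <;> by_cases h2 : r = c <;> simp_all
    · rw [bl_lr]
      simp only [w_01]
      rw [Equiv.swap_apply_def]
      by_cases h1 : c = Fin.last n <;> by_cases h2 : r = c <;> simp_all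
    · rw [bl_rl]
      simp only [w_10]
      rw [Equiv.swap_apply_def]
      by_cases h1 : c = Fin.last n <;> by_cases h2 : r = c <;> simp_all
    · rw [bl_rr]
      simp only [w_11]
      rw [Equiv.swap_apply_def]
      by_cases h1 : c = Fin.last n <;> by_cases h2 : r = c <;> simp_all
  π_a := by simp
  π_b := by simp
  d_mem := by
    intro t ht
    rintro (r | r) (c | c) <;> change (bl (Fin.last n) (d t ht)).1 _ _ ≠ 0 ↔ _
    · rw [bl_ll]
      simp only [d_00, Equiv.Perm.one_apply]
      by_cases h1 : r = c <;> by_cases h2 : r = Fin.last n <;> simp_all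
    · rw [bl_lr]
      simp only [d_01, Equiv.Perm.one_apply]
      by_cases h1 : r = c <;> by_cases h2 : r = Fin.last n <;> simp_all
    · rw [bl_rl]
      simp only [d_10, Equiv.Perm.one_apply]
      by_cases h1 : r = c <;> by_cases h2 : r = Fin.last n <;> simp_all
    · rw [bl_rr]
      simp only [d_11, Equiv.Perm.one_apply]
      by_cases h1 : r = c <;> by_cases h2 : r = Fin.last n <;> simp_all
  x_diag := by
    rintro t (r | r) <;> change (bl (Fin.last n) (x t)).1 _ _ = 1
    · rw [bl_ll]
      simp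
    · rw [bl_rr]
      simp
  y_diag := by
    rintro t (r | r) <;> change (bl (Fin.last n) (y t)).1 _ _ = 1
    · rw [bl_ll]
      simp
    · rw [bl_rr]
      simp
  x_supp := by
    rintro t (r | r) (c | c) hrc h <;> change (bl (Fin.last n) (x t)).1 _ _ ≠ 0 at h
    · rw [bl_ll, if_neg (fun h1 => hrc (by rw [h1]))] at h
      exact absurd rfl h
    · rw [bl_lr] at h
      by_cases h1 : r = c
      · subst h1
        by_cases h2 : r = Fin.last n
        · subst h2
          exact ⟨rfl, rfl⟩
        · simp [h2] at h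
      · simp [h1] at h
    · rw [bl_rl] at h
      simp at h
    · rw [bl_rr, if_neg (fun h1 => hrc (by rw [h1]))] at h
      exact absurd rfl h
  y_supp := by
    rintro t (r | r) (c | c) hrc h <;> change (bl (Fin.last n) (y t)).1 _ _ ≠ 0 at h
    · rw [bl_ll, if_neg (fun h1 => hrc (by rw [h1]))] at h
      exact absurd rfl h
    · rw [bl_lr] at h
      simp at h
    · rw [bl_rl] at h
      by_cases h1 : r = c
      · subst h1
        by_cases h2 : r = Fin.last n
        · subst h2
          exact ⟨rfl, rfl⟩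
        · simp [h2] at h
      · simp [h1] at h
    · rw [bl_rr, if_neg (fun h1 => hrc (by rw [h1]))] at h
      exact absurd rfl h
  x_ab := by
    intro t
    show (bl (Fin.last n) (x t)).1 _ _ = t
    rw [bl_lr]
    simp
  y_ba := by
    show (bl (Fin.last n) (y 1)).1 _ _ ≠ 0
    rw [bl_rl]
    simp
  add := by
    intro u v hu hv
    exact add_of_adj ordS_inj (by simp; omega) hu hv
  van := by
    intro u hu h0 r c h1 h2
    obtain ⟨rfl, rfl⟩ := long_inv h1 h2
    exact h0
  H_norm := by
    intro h hh t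
    refine ⟨h.1 (inl (Fin.last n)) (inl (Fin.last n)) * t * (h.1 (inr (Fin.last n)) (inr (Fin.last n)))⁻¹, ?_⟩
    apply Subtype.ext
    ext r c
    rw [diag_conj hh]
    rcases r with r | r <;> rcases c with c | c
    · rw [bl_ll, bl_ll]
      by_cases h1 : r = c
      · subst h1
        simp only [if_true, x_00, ite_self, mul_one]
        exact mul_inv_cancel₀ (diag_ne hh _)
      · simp [h1]
    · rw [bl_lr, bl_lr]
      by_cases h1 : r = c
      · subst h1
        by_cases h2 : r = Fin.last n
        · subst h2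
          simp
        · simp [h2]
      · simp [h1]
    · rw [bl_rl, bl_rl]
      simp
    · rw [bl_rr, bl_rr]
      by_cases h1 : r = c
      · subst h1
        simp only [if_true, x_11, ite_self, mul_one]
        exact mul_inv_cancel₀ (diag_ne hh _)
      · simp [h1]
  dich := by
    intro n' π' hn
    have h5 : ordS (π'⁻¹ (inl (Fin.last n))) ≠ ordS (π'⁻¹ (inr (Fin.last n))) := fun h => by
      have h6 := π'⁻¹.injective (ordS_inj h)
      simp at h6
    rcases lt_or_gt_of_ne h5 with h6 | h6
    · left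
      rintro r c ⟨rfl, rfl⟩
      exact h6
    · right
      rintro r c ⟨rfl, rfl⟩
      exact h6

/-! ### Assembly -/

/-- All root data. -/
noncomputable def allData : Option (Fin n) → RootData (rh (n := n) (F := F)) (ord := ordS)
  | none => longData
  | some i => shortData i

theorem allData_inj : Function.Injective fun j => (allData (n := n) (F := F) j).π := by
  have key : ∀ (i : Fin n) (x : Fin (n + 1)), (shortData (F := F) i).π (inl x) = inl (Equiv.swap i.castSucc i.succ x) := fun i x => rfl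
  rintro (_ | i) (_ | i') h
  · rfl
  · exfalso
    have h1 := congrArg (fun π => π (inl (Fin.last n))) h
    have h2 : (longData (n := n) (F := F)).π (inl (Fin.last n)) = inr (Fin.last n) := Equiv.swap_apply_left _ _
    have h3 : (allData (n := n) (F := F) none).π = (longData (n := n) (F := F)).π := rfl
    have h4 : (allData (n := n) (F := F) (some i')).π = (shortData (F := F) i').π := rfl
    simp only [h3, h4] at h1
    rw [h2, key] at h1
    simp at h1
  · exfalso
    have h1 := congrArg (fun π => π (inl (Fin.last n))) h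
    have h2 : (longData (n := n) (F := F)).π (inl (Fin.last n)) = inr (Fin.last n) := Equiv.swap_apply_left _ _
    have h3 : (allData (n := n) (F := F) none).π = (longData (n := n) (F := F)).π := rfl
    have h4 : (allData (n := n) (F := F) (some i)).π = (shortData (F := F) i).π := rfl
    simp only [h3, h4] at h1
    rw [h2, key] at h1
    simp at h1
  · have h1 := congrArg (fun π => π (inl i.castSucc)) h
    have h3 : (allData (n := n) (F := F) (some i)).π = (shortData (F := F) i).π := rfl
    have h4 : (allData (n := n) (F := F) (some i')).π = (shortData (F := F) i').π := rfl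
    simp only [h3, h4, key, Sum.inl.injEq] at h1
    rw [Equiv.swap_apply_left, Equiv.swap_apply_def] at h1
    congr 1
    split_ifs at h1 with h5 h6
    · exact Fin.ext (by simpa [Fin.ext_iff] using h1)
    · simp only [Fin.ext_iff, Fin.val_castSucc, Fin.val_succ] at h1 h6
      omega
    · simp only [Fin.ext_iff, Fin.val_castSucc, Fin.val_succ] at h1
      omega

theorem allData_τ (j : Option (Fin n)) (c r : Idx n) (h1 : ordS c < ordS r)
    (h2 : ordS ((allData (F := F) j).π r) < ordS ((allData (F := F) j).π c)) :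
    (allData (F := F) j).Sx ((allData (F := F) j).π r) ((allData (F := F) j).π c) := by
  rcases j with _ | i
  · obtain ⟨rfl, rfl⟩ := long_inv h1 h2
    exact ⟨Equiv.swap_apply_right _ _, Equiv.swap_apply_left _ _⟩
  · rcases short_inv i h1 h2 with ⟨rfl, rfl⟩ | ⟨rfl, rfl⟩
    · left
      constructor <;> simp [allData, shortData]
    · right
      constructor <;> simp [allData, shortData]

theorem ord_surj (r : Idx n) (k : ℕ) (h : k < ordS r) : ∃ j : Idx n, ordS j = k := by
  have h1 := ordS_le r
  by_cases hk : k ≤ n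
  · exact ⟨inl ⟨k, by omega⟩, rfl⟩
  · exact ⟨inr ⟨2 * n + 1 - k, by omega⟩, by simp; omega⟩

theorem allData_cov (r c : Idx n) (h : ordS c = ordS r + 1) : ∃ j, (allData (F := F) j).Sx r c := by
  rcases r with k | k <;> rcases c with l | l <;> simp only [ordS_inl, ordS_inr] at h <;> have hk := k.2 <;> have hl := l.2
  · refine ⟨some ⟨k, by omega⟩, Or.inl ⟨rfl, ?_⟩⟩
    exact congrArg inl (Fin.ext (by simp; omega))
  · refine ⟨none, ?_, ?_⟩
    · exact congrArg inl (Fin.ext (by simp; omega))
    · exact congrArg inr (Fin.ext (by simp; omega))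
  · omega
  · refine ⟨some ⟨l, by omega⟩, Or.inr ⟨?_, rfl⟩⟩
    exact congrArg inr (Fin.ext (by simp; omega))

/-! ### Generation -/

local notation "tv" => Matrix.SpecialLinearGroup.transvection

theorem isUT_hat_tv {i j : Fin (n + 1)} (hij : i ≠ j) (hlt : i < j) (t : F) :
    IsUT rh ordS (hatH (tv hij t)) := by
  constructor
  · rintro (r | r) (c | c) h
    · rw [rh_apply, hatH_ll, Cfsg.Agent.Lib.StBlocks.SLBasic.tv_apply]
      simp only [ordS_inl] at h
      have h1 : r ≠ c := fun h2 => by
        subst h2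
        exact lt_irrefl _ h
      have h2 : ¬ (r = i ∧ c = j) := by
        rintro ⟨rfl, rfl⟩
        exact absurd hlt (not_lt.2 (le_of_lt h))
      simp [h1, h2]
    · exfalso
      simp only [ordS_inl, ordS_inr] at h
      have h1 := r.2
      have h2 := c.2
      omega
    · rw [rh_apply, hatH_rl]
    · rw [rh_apply, hatH_rr, Matrix.SpecialLinearGroup.transvection_inv, Cfsg.Agent.Lib.StBlocks.SLBasic.tv_apply]
      simp only [ordS_inr] at h
      have h3 := r.2
      have h4 := c.2
      have h1 : c ≠ r := fun h2 => by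
        subst h2
        exact lt_irrefl _ h
      have h2 : ¬ (c = i ∧ r = j) := by
        rintro ⟨rfl, rfl⟩
        have : (c : ℕ) < r := hlt
        omega
      simp [h1, h2]
  · rintro (r | r)
    · rw [rh_apply, hatH_ll, Cfsg.Agent.Lib.StBlocks.SLBasic.tv_apply]
      have h2 : ¬ (r = i ∧ r = j) := by
        rintro ⟨rfl, rfl⟩
        exact hij rfl
      simp [h2]
    · rw [rh_apply, hatH_rr, Matrix.SpecialLinearGroup.transvection_inv, Cfsg.Agent.Lib.StBlocks.SLBasic.tv_apply]
      have h2 : ¬ (r = i ∧ r = j) := by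
        rintro ⟨rfl, rfl⟩
        exact hij rfl
      simp [h2]

theorem hatH_ee_isMon {i j : Fin (n + 1)} (hij : i ≠ j) :
    IsMon rh (hatH (Cfsg.Agent.Lib.StBlocks.SLBasic.ee hij : Matrix.SpecialLinearGroup (Fin (n + 1)) F))
      (Equiv.sumCongr (Equiv.swap i j) (Equiv.swap i j)) := by
  have h := Cfsg.Agent.Lib.StBlocks.SLPair.isMon_ee (F := F) hij
  refine hatH_isMon h ?_
  intro r c
  rw [h.inv c r]
  constructor
  · intro h1
    rw [h1]
    simp
  · intro h1
    rw [h1]
    simp

/-- The Levi subgroup is in the group generated by `U`, `H`, `N`. -/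
theorem hatH_mem (M : Matrix.SpecialLinearGroup (Fin (n + 1)) F) :
    hatH M ∈ (USub rh ordS_inj ⊔ HSub rh) ⊔ NSub rh := by
  have h1 : (⊤ : Subgroup (Matrix.SpecialLinearGroup (Fin (n + 1)) F)) ≤
      ((USub rh ordS_inj ⊔ HSub rh) ⊔ NSub rh).comap hatH := by
    rw [← Cfsg.Agent.Lib.Linalg.Transvection.closure_transvections, Subgroup.closure_le]
    rintro _ ⟨i, j, hij, a, rfl⟩
    have hU : ∀ {i j : Fin (n + 1)} (hij : i ≠ j) (hlt : i < j) (t : F),
        hatH (tv hij t) ∈ (USub rh ordS_inj ⊔ HSub rh) ⊔ NSub rh := fun hij hlt t =>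
      Subgroup.mem_sup_left (Subgroup.mem_sup_left (isUT_hat_tv hij hlt t))
    rcases lt_or_gt_of_ne hij with h | h
    · exact hU hij h a
    · have h2 := Cfsg.Agent.Lib.StBlocks.SLPair.tv_conj_ee (F := F) hij.symm (-a)
      rw [neg_neg] at h2
      show hatH (tv hij a) ∈ (USub rh ordS_inj ⊔ HSub rh) ⊔ NSub rh
      have h3 : tv hij a = tv hij.symm.symm a := rfl
      rw [h3, ← h2]
      simp only [map_mul, map_inv]
      have hN : hatH (Cfsg.Agent.Lib.StBlocks.SLBasic.ee hij.symm : Matrix.SpecialLinearGroup (Fin (n + 1)) F) ∈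
          (USub rh ordS_inj ⊔ HSub rh) ⊔ NSub rh := Subgroup.mem_sup_right ⟨_, hatH_ee_isMon hij.symm⟩
      exact Subgroup.mul_mem _ (Subgroup.mul_mem _ hN (hU hij.symm h _)) (Subgroup.inv_mem _ hN)
  exact h1 (Subgroup.mem_top M)

theorem gen_sup : (USub rh (ordS_inj (n := n)) ⊔ HSub (rh (F := F))) ⊔ NSub rh = ⊤ := by
  have hbl : ∀ z : SL(2, F), bl (Fin.last n) z ∈ (USub rh (ordS_inj (n := n)) ⊔ HSub (rh (F := F))) ⊔ NSub rh :=
    fun z => RootData.mem_sup longData z
  by_cases hn : n = 0
  · subst hn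
    rw [eq_top_iff]
    intro g _
    have hdet : g.1 (inl 0) (inl 0) * g.1 (inr 0) (inr 0) - g.1 (inl 0) (inr 0) * g.1 (inr 0) (inl 0) = 1 := by
      have h1 := form g (inl 0) (inr 0)
      rw [J_lr, if_pos rfl, Fin.sum_univ_one] at h1
      linear_combination (-1 : F) * h1
    have h2 : bl (Fin.last 0) (sl2 _ _ _ _ hdet) = g := by
      apply Subtype.ext
      ext r c
      have e : ∀ k : Fin 1, k = 0 := fun k => Subsingleton.elim _ _
      rcases r with r | r <;> rcases c with c | c <;> rw [e r, e c]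
      · rw [bl_ll]
        simp
      · rw [bl_lr]
        simp
      · rw [bl_rl]
        simp
      · rw [bl_rr]
        simp
    rw [← h2]
    exact hbl _
  · rw [eq_top_iff, ← gen_top (n := n + 1) (F := F) (by omega) (Fin.last n), Subgroup.closure_le]
    rintro _ (⟨M, rfl⟩ | ⟨z, rfl⟩)
    · exact hatH_mem M
    · exact hbl z

variable (n F) in
/-- The Steinberg character of the projective symplectic group. -/
theorem main (p : ℕ) [Fact p.Prime] [CharP F p] :
    ∃ χ : (SpG n F ⧸ Subgroup.center (SpG n F)) → ℂ, Cfsg.IsIrrCharacter (SpG n F ⧸ Subgroup.center (SpG n F)) χ ∧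
    ∀ Q : Sylow p (SpG n F ⧸ Subgroup.center (SpG n F)), χ 1 = Nat.card Q ∧
      ∀ x : SpG n F ⧸ Subgroup.center (SpG n F), x ∈ Q → x ≠ 1 → χ x = 0 :=
  Chain.main (hord := ordS_inj) allData allData_inj allData_τ ord_surj allData_cov p rh_inj gen_sup

end Cfsg.Agent.Lib.StGen.SpPair
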